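import Mathlib
import Cfsg.Agent.Lib.InvChar.SymSix

/-!
Class numbers of symmetric and alternating groups.
-/

set_option autoImplicit false

open Equiv Equiv.Perm

namespace H5.SN

/-- Possible cycle types in degree `n`. -/
def CT (n : ℕ) : Set (Multiset ℕ) := {m | m.sum ≤ n ∧ ∀ a ∈ m, 2 ≤ a}

theorem card_conjClasses_perm (n : ℕ) :
    Nat.card (ConjClasses (Perm (Fin n))) = (CT n).ncard ∧ (CT n).Finite := by
  let f : ConjClasses (Perm (Fin n)) → Multiset ℕ :=
    Quotient.lift (fun g => g.cycleType) fun a b h => isConj_iff_cycleType_eq.mp h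
  have hf : Function.Injective f := by
    rintro ⟨a⟩ ⟨b⟩ h
    exact Quotient.sound (isConj_iff_cycleType_eq.mpr h)
  have hr : Set.range f = CT n := by
    ext m
    constructor
    · rintro ⟨⟨g⟩, rfl⟩
      have := (exists_with_cycleType_iff (Fin n) (m := g.cycleType)).mp ⟨g, rfl⟩
      rw [Fintype.card_fin] at this
      exact this
    · intro h
      obtain ⟨g, rfl⟩ := (exists_with_cycleType_iff (Fin n) (m := m)).mpr
        (by rw [Fintype.card_fin]; exact h)
      exact ⟨ConjClasses.mk g, rfl⟩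
  rw [← hr]
  exact ⟨(Set.ncard_range_of_injective hf).symm, Set.finite_range f⟩

theorem ncard_CT_succ (n : ℕ) : (CT (n + 1)).ncard ≤ 2 * (CT n).ncard := by
  classical
  let inc : Multiset ℕ → Multiset ℕ := fun m =>
    if m.sum = n then (sInf {x | x ∈ m} + 1) ::ₘ m.erase (sInf {x | x ∈ m}) else 2 ::ₘ m
  have hfin := (card_conjClasses_perm n).2
  have h : CT (n + 1) ⊆ CT n ∪ inc '' CT n := by
    rintro m ⟨h1, h2⟩
    by_cases hs : m.sum ≤ n
    · exact Or.inl ⟨hs, h2⟩
    right
    have hne : {x | x ∈ m}.Nonempty := by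
      by_contra h0
      have : m = 0 := Multiset.eq_zero_of_forall_notMem fun x hx => h0 ⟨x, hx⟩
      rw [this] at hs
      simp at hs
    have ha : sInf {x | x ∈ m} ∈ m := Nat.sInf_mem hne
    have hle : ∀ x ∈ m, sInf {x | x ∈ m} ≤ x := fun x hx => Nat.sInf_le hx
    generalize sInf {x | x ∈ m} = a at ha hle
    obtain ⟨t, rfl⟩ := Multiset.exists_cons_of_mem ha
    have h3 := h2 a ha
    rw [Multiset.sum_cons] at h1 hs
    by_cases ha2 : a = 2
    · refine ⟨t, ⟨by omega, fun x hx => h2 x (Multiset.mem_cons_of_mem hx)⟩, ?_⟩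
      simp only [inc]
      rw [if_neg (by omega), ha2]
    · refine ⟨(a - 1) ::ₘ t, ⟨by rw [Multiset.sum_cons]; omega, fun x hx => ?_⟩, ?_⟩
      · rcases Multiset.mem_cons.mp hx with rfl | hx
        · omega
        · exact h2 x (Multiset.mem_cons_of_mem hx)
      · have : sInf {x | x ∈ (a - 1) ::ₘ t} = a - 1 := by
          refine le_antisymm (Nat.sInf_le (Multiset.mem_cons_self _ _)) ?_
          refine le_csInf ⟨_, Multiset.mem_cons_self _ _⟩ fun x hx => ?_
          rcases Multiset.mem_cons.mp hx with rfl | hx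
          · exact le_rfl
          · have := hle x (Multiset.mem_cons_of_mem hx); omega
        simp only [inc]
        rw [if_pos (by rw [Multiset.sum_cons]; omega), this, Multiset.erase_cons_head,
          Nat.sub_add_cancel (by omega)]
  have h1 := Set.ncard_le_ncard h (hfin.union (hfin.image _))
  have h2 := Set.ncard_union_le (CT n) (inc '' CT n)
  have h3 := Set.ncard_image_le (f := inc) hfin
  omega

theorem ncard_CT_five : (CT 5).ncard ≤ 8 := by
  have h : CT 5 ⊆ (({0, {2}, {3}, {4}, {5}, {2, 2}, {2, 3}, {3, 2}} : Finset (Multiset ℕ)) :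
      Set (Multiset ℕ)) := by
    rintro m ⟨h1, h2⟩
    have hle : m.card • 2 ≤ m.sum := Multiset.card_nsmul_le_sum h2
    rw [smul_eq_mul] at hle
    have hc : m.card = 0 ∨ m.card = 1 ∨ m.card = 2 := by omega
    rcases hc with hc | hc | hc
    · rw [Multiset.card_eq_zero.mp hc]; simp
    · obtain ⟨a, rfl⟩ := Multiset.card_eq_one.mp hc
      have := h2 a (by simp)
      rw [Multiset.sum_singleton] at h1
      interval_cases a <;> simp
    · obtain ⟨a, b, rfl⟩ := Multiset.card_eq_two.mp hc
      have ha := h2 a (by simp)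
      have hb := h2 b (by simp)
      simp only [Multiset.insert_eq_cons, Multiset.sum_cons, Multiset.sum_singleton] at h1
      have : (a = 2 ∧ b = 2) ∨ (a = 2 ∧ b = 3) ∨ (a = 3 ∧ b = 2) := by omega
      rcases this with ⟨rfl, rfl⟩ | ⟨rfl, rfl⟩ | ⟨rfl, rfl⟩ <;> simp
  refine (Set.ncard_le_ncard h (Finset.finite_toSet _)).trans ?_
  rw [Set.ncard_coe_finset]
  decide

theorem ncard_CT_le {n : ℕ} (hn : 5 ≤ n) : (CT n).ncard ≤ 2 ^ (n - 2) := by
  induction n, hn using Nat.le_induction with
  | base => exact ncard_CT_five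
  | succ n hn ih =>
    have := ncard_CT_succ n
    rw [show n + 1 - 2 = n - 2 + 1 by omega, pow_succ]
    omega

theorem isConj_alt_three {α : Type*} [Fintype α] [DecidableEq α] {r x y : alternatingGroup α}
    (h1 : IsConj r.1 x.1) (h2 : IsConj r.1 y.1) (h3 : ¬ IsConj r x) (h4 : ¬ IsConj r y) :
    IsConj x y := by
  obtain ⟨a, ha⟩ := isConj_iff.mp h1
  obtain ⟨b, hb⟩ := isConj_iff.mp h2
  have ha' : sign a = -1 := (Int.units_eq_one_or _).resolve_left fun h =>
    h3 (isConj_iff.mpr ⟨⟨a, h⟩, Subtype.ext ha⟩)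
  have hb' : sign b = -1 := (Int.units_eq_one_or _).resolve_left fun h =>
    h4 (isConj_iff.mpr ⟨⟨b, h⟩, Subtype.ext hb⟩)
  refine isConj_iff.mpr ⟨⟨b * a⁻¹, ?_⟩, Subtype.ext ?_⟩
  · rw [mem_alternatingGroup, map_mul, map_inv, ha', hb']; simp
  · change b * a⁻¹ * x.1 * (b * a⁻¹)⁻¹ = y.1
    rw [← ha, ← hb]; group

theorem card_conjClasses_alt_lt {n : ℕ} (hn : 5 ≤ n) :
    Nat.card (ConjClasses (alternatingGroup (Fin n))) < Nat.card (ConjClasses (Perm (Fin n))) := by
  classical
  let r : Multiset ℕ → alternatingGroup (Fin n) :=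
    Function.invFun fun x : alternatingGroup (Fin n) => x.1.cycleType
  have hr : ∀ x : alternatingGroup (Fin n), IsConj (r x.1.cycleType).1 x.1 := fun x =>
    isConj_iff_cycleType_eq.mpr
      (Function.invFun_eq (f := fun x : alternatingGroup (Fin n) => x.1.cycleType) ⟨x, rfl⟩)
  have key : ∀ x : alternatingGroup (Fin n), ∃ g : Perm (Fin n),
      (g = x.1 ∧ IsConj (r x.1.cycleType) x) ∨ (¬ IsConj (r x.1.cycleType) x ∧ sign g = -1 ∧
        (∀ c ∈ x.1.cycleType, Odd c) ∧ n ≤ x.1.cycleType.sum + 1 ∧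
        ∃ a t, x.1.cycleType = (a + 1) ::ₘ t ∧ g.cycleType = a ::ₘ t) := fun x => by
    by_cases h : IsConj (r x.1.cycleType) x
    · exact ⟨x.1, Or.inl ⟨rfl, h⟩⟩
    have hc : Subgroup.centralizer {x.1} ≤ alternatingGroup (Fin n) := fun c hc => by
      by_contra hc'
      exact h (H72.isConj_alt_of_odd_commute (hr x).symm
        ((Int.units_eq_one_or _).resolve_left hc')
        (Subgroup.mem_centralizer_singleton_iff.mp hc)).symm
    obtain ⟨h1, h2, -⟩ := centralizer_le_alternating_iff.mp hc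
    rw [Fintype.card_fin] at h2
    have h0 : x.1.cycleType ≠ 0 := by
      intro h0; rw [h0] at h2; simp at h2; omega
    obtain ⟨b, hb⟩ := Multiset.exists_mem_of_ne_zero h0
    obtain ⟨t, ht⟩ := Multiset.exists_cons_of_mem hb
    have hb2 := two_le_of_mem_cycleType hb
    obtain ⟨k, hk⟩ := h1 b hb
    have h3 := (exists_with_cycleType_iff (Fin n) (m := x.1.cycleType)).mp ⟨x.1, rfl⟩
    rw [ht, Multiset.sum_cons] at h3
    obtain ⟨g, hg⟩ := (exists_with_cycleType_iff (Fin n) (m := (2 * k) ::ₘ t)).mpr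
      ⟨by rw [Multiset.sum_cons]; omega, fun a ha => by
        rcases Multiset.mem_cons.mp ha with rfl | ha
        · omega
        · exact h3.2 a (Multiset.mem_cons_of_mem ha)⟩
    refine ⟨g, Or.inr ⟨h, ?_, h1, h2, 2 * k, t, by rw [ht, hk], hg⟩⟩
    have h4 := mem_alternatingGroup.mp x.2
    rw [sign_of_cycleType, ht, hk] at h4
    rw [sign_of_cycleType, hg]
    simp only [Multiset.sum_cons, Multiset.card_cons] at h4 ⊢
    obtain ⟨j, hj⟩ := (neg_one_pow_eq_one_iff_even (by decide)).mp h4
    exact Odd.neg_one_pow ⟨j - 1, by omega⟩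
  choose g hg using key
  let f : ConjClasses (alternatingGroup (Fin n)) → ConjClasses (Perm (Fin n)) := fun c =>
    ConjClasses.mk (g (Quotient.out c))
  have hsgn : ∀ {a b : Perm (Fin n)}, IsConj a b → sign a = sign b := fun h =>
    isConj_iff_eq.mp (sign.map_isConj h)
  have hf : Function.Injective f := fun c d hcd => by
    have h := ConjClasses.mk_eq_mk_iff_isConj.mp hcd
    rw [← Quotient.out_eq c, ← Quotient.out_eq d]
    refine Quotient.sound ?_
    generalize Quotient.out c = x at h
    generalize Quotient.out d = y at h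
    change IsConj x y
    rcases hg x with ⟨h1, h2⟩ | ⟨h1, h2, h3, -, a, t, h4, h5⟩ <;>
      rcases hg y with ⟨k1, k2⟩ | ⟨k1, k2, k3, -, b, s, k4, k5⟩
    · rw [h1, k1] at h
      rw [isConj_iff_cycleType_eq.mp h] at h2
      exact h2.symm.trans k2
    · have := hsgn h
      rw [h1, k2, mem_alternatingGroup.mp x.2] at this
      exact absurd this (by decide)
    · have := hsgn h
      rw [h2, k1, mem_alternatingGroup.mp y.2] at this
      exact absurd this (by decide)
    · have h6 := isConj_iff_cycleType_eq.mp h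
      rw [h5, k5] at h6
      have hab : a = b := by
        have : a ∈ b ::ₘ s := h6 ▸ Multiset.mem_cons_self _ _
        rcases Multiset.mem_cons.mp this with h7 | h7
        · exact h7
        · obtain ⟨u, hu⟩ := h3 (a + 1) (h4 ▸ Multiset.mem_cons_self _ _)
          obtain ⟨v, hv⟩ := k3 a (k4 ▸ Multiset.mem_cons_of_mem h7)
          omega
      rw [hab, Multiset.cons_inj_right] at h6
      have h7 : x.1.cycleType = y.1.cycleType := by rw [h4, k4, hab, h6]
      exact isConj_alt_three (hr x) (h7 ▸ hr y) h1 (h7 ▸ k1)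
  have hns : ¬ Function.Surjective f := fun hs => by
    obtain ⟨s, hs2⟩ := (exists_with_cycleType_iff (Fin n) (m := {2})).mpr
      ⟨by simp; omega, by simp⟩
    obtain ⟨c, hc⟩ := hs (ConjClasses.mk s)
    have h := ConjClasses.mk_eq_mk_iff_isConj.mp hc
    generalize Quotient.out c = x at h
    rcases hg x with ⟨h1, h2⟩ | ⟨h1, h2, h3, h6, a, t, h4, h5⟩
    · have := hsgn h
      rw [h1, mem_alternatingGroup.mp x.2, sign_of_cycleType, hs2] at this
      exact absurd this (by decide)
    · have h7 := isConj_iff_cycleType_eq.mp h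
      rw [h5, hs2] at h7
      have h8 := congrArg Multiset.sum h7
      rw [h4] at h6
      simp only [Multiset.sum_cons, Multiset.sum_singleton] at h6 h8
      omega
  have := Fintype.ofFinite (ConjClasses (alternatingGroup (Fin n)))
  have := Fintype.ofFinite (ConjClasses (Perm (Fin n)))
  rw [Nat.card_eq_fintype_card, Nat.card_eq_fintype_card]
  exact Fintype.card_lt_of_injective_not_surjective f hf hns

end H5.SN
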