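import Mathlib

/-!
Abelian subgroups of symmetric and alternating groups: the largest orders and the shape of the
extremal subgroups.
-/

set_option autoImplicit false

open MulAction Equiv Equiv.Perm

namespace H5.SN

/-- The largest product of positive numbers with sum `n`. -/
def fA : ℕ → ℕ
  | 0 => 1
  | 1 => 1
  | 2 => 2
  | 3 => 3
  | 4 => 4
  | (n + 5) => 3 * fA (n + 2)

theorem fA_step {m : ℕ} (hm : 2 ≤ m) : fA (m + 3) = 3 * fA m := by
  obtain ⟨k, rfl⟩ := Nat.exists_eq_add_of_le' hm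
  rfl

theorem fA_three (k : ℕ) : fA (3 * k) = 3 ^ k := by
  induction k with
  | zero => rfl
  | succ k ih =>
    rcases Nat.eq_zero_or_pos k with rfl | hk
    · rfl
    · rw [show 3 * (k + 1) = 3 * k + 3 by ring, fA_step (by omega), ih]; ring

theorem fA_four (k : ℕ) : fA (3 * k + 4) = 4 * 3 ^ k := by
  induction k with
  | zero => rfl
  | succ k ih => rw [show 3 * (k + 1) + 4 = 3 * k + 4 + 3 by ring, fA_step (by omega), ih]; ring

theorem fA_two (k : ℕ) : fA (3 * k + 2) = 2 * 3 ^ k := by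
  induction k with
  | zero => rfl
  | succ k ih => rw [show 3 * (k + 1) + 2 = 3 * k + 2 + 3 by ring, fA_step (by omega), ih]; ring

theorem fA_pos (m : ℕ) : 0 < fA m := by
  induction m using Nat.strong_induction_on with
  | _ m ih =>
    match m with
    | 0 | 1 | 2 | 3 | 4 => decide
    | (n + 5) => have := ih (n + 2) (by omega); show 0 < 3 * fA (n + 2); omega

theorem fA_add_three (m : ℕ) : 3 * fA m ≤ fA (m + 3) := by
  match m with
  | 0 | 1 => decide
  | (n + 2) => rw [fA_step (by omega)]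

theorem fA_add_two (m : ℕ) : 2 * fA m ≤ fA (m + 2) := by
  induction m using Nat.strong_induction_on with
  | _ m ih =>
    match m with
    | 0 | 1 | 2 | 3 | 4 => decide
    | (n + 5) =>
      have := ih (n + 2) (by omega)
      have h1 := fA_step (m := n + 2 + 2) (by omega)
      have h2 := fA_step (m := n + 2) (by omega)
      change 2 * fA (n + 2 + 3) ≤ fA (n + 2 + 2 + 3)
      omega

theorem fA_add_one {m : ℕ} (hm : 1 ≤ m) : 4 * fA m ≤ 3 * fA (m + 1) := by
  induction m using Nat.strong_induction_on with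
  | _ m ih =>
    match m with
    | 0 => omega
    | 1 | 2 | 3 | 4 => decide
    | (n + 5) =>
      have := ih (n + 2) (by omega) (by omega)
      have h1 := fA_step (m := n + 2 + 1) (by omega)
      have h2 := fA_step (m := n + 2) (by omega)
      change 4 * fA (n + 2 + 3) ≤ 3 * fA (n + 2 + 1 + 3)
      omega

theorem mul_fA_lt (m s : ℕ) (hs : 5 ≤ s) : 9 * (s * fA m) < 8 * fA (m + s) := by
  induction s using Nat.strong_induction_on with
  | _ s ih =>
    have h0 := fA_pos m
    have h2 := fA_add_two m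
    have h3 := fA_add_three m
    have h4 := fA_add_two (m + 2)
    have h5 := fA_add_three (m + 2)
    have h6 := fA_add_three (m + 3)
    have h7 := fA_add_three (m + 2 + 2)
    match s with
    | 0 | 1 | 2 | 3 | 4 => omega
    | 5 => rw [show m + 5 = m + 2 + 3 by ring]; omega
    | 6 => rw [show m + 6 = m + 3 + 3 by ring]; omega
    | 7 => rw [show m + 7 = m + 2 + 2 + 3 by ring]; omega
    | (t + 8) =>
      have h := ih (t + 5) (by omega) (by omega)
      have h8 := fA_add_three (m + (t + 5))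
      rw [show m + (t + 8) = m + (t + 5) + 3 by ring]
      nlinarith

theorem mul_fA_le (m s : ℕ) (hs : 1 ≤ s) : s * fA m ≤ fA (m + s) := by
  have h2 := fA_add_two m
  have h3 := fA_add_three m
  have h4 := fA_add_two (m + 2)
  match s with
  | 0 => omega
  | 1 =>
    rcases Nat.eq_zero_or_pos m with rfl | hm
    · decide
    · have := fA_add_one hm; omega
  | 2 => exact h2
  | 3 => exact h3
  | 4 => rw [show m + 4 = m + 2 + 2 by ring]; omega
  | (t + 5) => have := mul_fA_lt m (t + 5) (by omega); omega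

theorem prod_le_fA {ι : Type*} (s : Finset ι) (c : ι → ℕ) (hc : ∀ i, 1 ≤ c i) :
    ∏ i ∈ s, c i ≤ fA (∑ i ∈ s, c i) := by
  classical
  induction s using Finset.induction_on with
  | empty => simp [fA]
  | insert a s ha ih =>
    rw [Finset.prod_insert ha, Finset.sum_insert ha, add_comm]
    exact (Nat.mul_le_mul_left _ ih).trans (mul_fA_le _ _ (hc a))

theorem eq_of_prod_large {ι : Type*} (s : Finset ι) (c : ι → ℕ) (hc : ∀ i, 1 ≤ c i)
    (h2 : 2 ≤ ∑ i ∈ s, c i) (h : 8 * fA (∑ i ∈ s, c i) ≤ 9 * ∏ i ∈ s, c i) {a : ι} (ha : a ∈ s) :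
    c a = 2 ∨ c a = 3 ∨ c a = 4 := by
  classical
  rw [← Finset.add_sum_erase s c ha, add_comm] at h h2
  rw [← Finset.mul_prod_erase s c ha] at h
  have h1 := prod_le_fA (s.erase a) c hc
  have h3 := Nat.mul_le_mul_left (c a) h1
  by_contra hne
  rcases Nat.lt_or_ge (c a) 5 with h5 | h5
  · have h4 : c a = 1 := by have := hc a; omega
    rw [h4] at h h2 h3
    have := fA_add_one (m := ∑ i ∈ s.erase a, c i) (by omega)
    have := fA_pos (∑ i ∈ s.erase a, c i)
    omega
  · have := mul_fA_lt (∑ i ∈ s.erase a, c i) (c a) h5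
    omega

section Orbits

variable {α : Type*} [Fintype α] [DecidableEq α]

/-- The orbit size attached to an element of the orbit space. -/
noncomputable def osz (A : Subgroup (Perm α)) (ω : orbitRel.Quotient A α) : ℕ :=
  (orbit A ω.out).ncard

noncomputable instance instFintypeOrbQ (A : Subgroup (Perm α)) :
    Fintype (orbitRel.Quotient A α) := Fintype.ofFinite _

omit [DecidableEq α] in
theorem osz_pos (A : Subgroup (Perm α)) (ω : orbitRel.Quotient A α) : 1 ≤ osz A ω :=
  (Set.ncard_pos (Set.toFinite _)).mpr ⟨_, mem_orbit_self _⟩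

omit [Fintype α] [DecidableEq α] in
theorem orbit_out (A : Subgroup (Perm α)) (x : α) :
    orbit A (Quotient.out (Quotient.mk (orbitRel A α) x)) = orbit A x :=
  orbit_eq_iff.mpr (orbitRel_apply.mp (Quotient.exact (Quotient.out_eq _)))

omit [Fintype α] [DecidableEq α] in
theorem osz_mk (A : Subgroup (Perm α)) (x : α) :
    osz A (Quotient.mk (orbitRel A α) x) = (orbit A x).ncard := by
  unfold osz; rw [orbit_out]

omit [DecidableEq α] in
theorem sum_osz (A : Subgroup (Perm α)) : ∑ ω, osz A ω = Fintype.card α := by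
  classical
  rw [← Nat.card_eq_fintype_card, Nat.card_congr (selfEquivSigmaOrbits A α), Nat.card_sigma]
  rfl

omit [Fintype α] [DecidableEq α] in
theorem apply_eq_of_comm {A : Subgroup (Perm α)} (hA : IsMulCommutative A) {a b : Perm α}
    (ha : a ∈ A) (hb : b ∈ A) {x y : α} (hy : y ∈ orbit A x) (h : a x = b x) : a y = b y := by
  obtain ⟨g, rfl⟩ := hy
  have h1 : a * g = g * a := congrArg Subtype.val (hA.is_comm.comm ⟨a, ha⟩ g)
  have h2 : b * g = g * b := congrArg Subtype.val (hA.is_comm.comm ⟨b, hb⟩ g)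
  change (a * g) x = (b * g) x
  rw [h1, h2, Perm.mul_apply, Perm.mul_apply, h]

omit [DecidableEq α] in
theorem card_dvd_and_surj {A : Subgroup (Perm α)} (hA : IsMulCommutative A) :
    Nat.card A ∣ ∏ ω, osz A ω ∧ (Nat.card A = ∏ ω, osz A ω →
      ∀ t : α → α, (∀ x, t x ∈ orbit A x) → ∃ b ∈ A, ∀ x, ∃ y ∈ orbit A x, b y = t y) := by
  classical
  have hn : ∀ H : Subgroup A, H.Normal := fun H =>
    ⟨fun n hn g => by rwa [hA.is_comm.comm g n, mul_inv_cancel_right]⟩
  let φ : A →* ∀ ω : orbitRel.Quotient A α, A ⧸ stabilizer A ω.out :=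
    MonoidHom.pi fun ω => QuotientGroup.mk' _
  have hφ : Function.Injective φ := by
    rw [injective_iff_map_eq_one]
    intro a ha
    ext x
    have h1 := congrFun ha (Quotient.mk (orbitRel A α) x)
    have h2 : a ∈ stabilizer A (Quotient.out (Quotient.mk (orbitRel A α) x)) :=
      (QuotientGroup.eq_one_iff _).mp h1
    have h3 := apply_eq_of_comm hA a.2 A.one_mem
      (x := Quotient.out (Quotient.mk (orbitRel A α) x)) (y := x)
      (by rw [orbit_out]; exact mem_orbit_self _) h2
    exact h3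
  have hc : Nat.card (∀ ω : orbitRel.Quotient A α, A ⧸ stabilizer A ω.out) = ∏ ω, osz A ω := by
    rw [Nat.card_pi]
    refine Finset.prod_congr rfl fun ω _ => ?_
    rw [← Nat.card_congr (orbitEquivQuotientStabilizer A ω.out)]
    rfl
  refine ⟨hc ▸ Subgroup.card_dvd_of_injective φ hφ, fun h t ht => ?_⟩
  have hs : Function.Surjective φ :=
    ((Nat.bijective_iff_injective_and_card φ).mpr ⟨hφ, h.trans hc.symm⟩).2
  choose u hu using ht
  obtain ⟨b, hb⟩ := hs fun ω => QuotientGroup.mk (u ω.out)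
  refine ⟨b, b.2, fun x => ⟨Quotient.out (Quotient.mk (orbitRel A α) x), ?_, ?_⟩⟩
  · rw [← orbit_out]; exact mem_orbit_self _
  · have h1 := congrFun hb (Quotient.mk (orbitRel A α) x)
    have h2 : b⁻¹ * u (Quotient.out (Quotient.mk (orbitRel A α) x)) ∈
        stabilizer A (Quotient.out (Quotient.mk (orbitRel A α) x)) := QuotientGroup.eq.mp h1
    rw [mem_stabilizer_iff, mul_smul, inv_smul_eq_iff] at h2
    exact h2.symm.trans (hu _)

omit [DecidableEq α] in
theorem card_le_fA {A : Subgroup (Perm α)} (hA : IsMulCommutative A) :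
    Nat.card A ≤ fA (Fintype.card α) := by
  have h1 := Nat.le_of_dvd (Finset.prod_pos fun ω _ => osz_pos A ω) (card_dvd_and_surj hA).1
  have h2 := prod_le_fA Finset.univ (osz A) (osz_pos A)
  rw [sum_osz] at h2
  omega

theorem eq_one_of_support_le_two {ρ : Perm α} (h1 : sign ρ = 1) (h2 : ρ.support.card ≤ 2) :
    ρ = 1 := by
  rcases Nat.lt_or_ge ρ.support.card 2 with h | h
  · exact card_support_le_one.mp (by omega)
  · have := (card_support_eq_two.mp (le_antisymm h2 h)).sign_eq
    rw [h1] at this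
    exact absurd this (by decide)

theorem sq_eq_one_of_support_four {σ : Perm α} (h1 : sign σ = 1) (h4 : σ.support.card = 4) :
    σ * σ = 1 := by
  have hs : σ.cycleType.sum = 4 := by rw [sum_cycleType, h4]
  have he : Even (σ.cycleType.sum + σ.cycleType.card) := by
    rw [sign_of_cycleType] at h1
    exact (neg_one_pow_eq_one_iff_even (by decide)).mp h1
  have hle : σ.cycleType.card • 2 ≤ σ.cycleType.sum :=
    Multiset.card_nsmul_le_sum fun x hx => two_le_of_mem_cycleType hx
  have h0 : σ.cycleType.card ≠ 0 := by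
    intro h; rw [Multiset.card_eq_zero] at h; rw [h] at hs; simp at hs
  rw [hs] at he hle
  have h2 : σ.cycleType.card = 2 := by
    obtain ⟨r, hr⟩ := he
    simp only [smul_eq_mul] at hle
    omega
  obtain ⟨a, b, hab⟩ := Multiset.card_eq_two.mp h2
  have ha : 2 ≤ a := two_le_of_mem_cycleType (σ := σ) (by rw [hab]; simp)
  have hb : 2 ≤ b := two_le_of_mem_cycleType (σ := σ) (by rw [hab]; simp)
  rw [hab] at hs
  simp only [Multiset.insert_eq_cons, Multiset.sum_cons, Multiset.sum_singleton] at hs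
  have ha2 : a = 2 := by omega
  have hb2 : b = 2 := by omega
  have ho : orderOf σ = 2 := by rw [← lcm_cycleType, hab, ha2, hb2]; decide
  rw [← sq, ← ho, pow_orderOf_eq_one]

theorem card_support_le {σ : Perm α} {O : Set α} (h : ∀ y, y ∉ O → σ y = y) :
    σ.support.card ≤ O.ncard := by
  rw [← Set.ncard_coe_finset]
  refine Set.ncard_le_ncard (fun y hy => ?_) (Set.toFinite _)
  by_contra hO
  exact (mem_support.mp hy) (h y hO)

theorem eq_of_semiregular {σ τ : Perm α} {O : Set α} (hO : O.ncard = 3 ∨ O.ncard = 4)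
    (hσ : sign σ = 1) (hτ : sign τ = 1) (hσO : ∀ y, y ∉ O → σ y = y) (hτO : ∀ y, y ∉ O → τ y = y)
    (hσ1 : ∀ y ∈ O, σ y = y → σ = 1) (hτ1 : ∀ y ∈ O, τ y = y → τ = 1) {x : α} (hx : x ∈ O)
    (h : σ x = τ x) : σ = τ := by
  by_cases hxx : σ x = x
  · rw [hσ1 x hx hxx, hτ1 x hx (h ▸ hxx)]
  have hρ : sign (σ⁻¹ * τ) = 1 := by rw [map_mul, map_inv, hσ, hτ]; simp
  have hρO : ∀ y, y ∉ O → (σ⁻¹ * τ) y = y := fun y hy => by
    rw [Perm.mul_apply, hτO y hy, Perm.inv_eq_iff_eq, hσO y hy]
  have hρx : (σ⁻¹ * τ) x = x := by rw [Perm.mul_apply, ← h]; simp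
  refine inv_mul_eq_one.mp (eq_one_of_support_le_two hρ ?_)
  rcases hO with hO | hO
  · have := card_support_le (σ := σ⁻¹ * τ) (O := O \ {x}) (fun y hy => by
      by_cases hyO : y ∈ O
      · have : y = x := by by_contra hne; exact hy ⟨hyO, hne⟩
        rw [this, hρx]
      · exact hρO y hyO)
    rw [Set.ncard_sdiff_singleton_of_mem hx] at this
    omega
  · have key : ∀ {μ : Perm α}, sign μ = 1 → (∀ y, y ∉ O → μ y = y) →
        (∀ y ∈ O, μ y = y → μ = 1) → μ x ≠ x → μ * μ = 1 := fun {μ} h1 h2 h3 h4 => by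
      refine sq_eq_one_of_support_four h1 ?_
      rw [← hO, ← Set.ncard_coe_finset]
      congr 1
      ext y
      simp only [Finset.mem_coe, mem_support]
      constructor
      · intro hy; by_contra hyO; exact hy (h2 y hyO)
      · intro hy hyy; exact h4 (by rw [h3 y hy hyy]; rfl)
    have h1 := key hσ hσO hσ1 hxx
    have h2 := key hτ hτO hτ1 (h ▸ hxx)
    have hσx : σ x ∈ O := by
      by_contra hn
      exact hxx (σ.injective (hσO _ hn))
    have hρy : (σ⁻¹ * τ) (σ x) = σ x := by
      rw [Perm.mul_apply, Perm.inv_eq_iff_eq, ← Perm.mul_apply σ σ, h1, h, ← Perm.mul_apply τ τ,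
        h2]
    have := card_support_le (σ := σ⁻¹ * τ) (O := (O \ {x}) \ {σ x}) (fun y hy => by
      by_cases hyO : y ∈ O
      · by_cases hyx : y = x
        · rw [hyx, hρx]
        · have : y = σ x := by by_contra hne; exact hy ⟨⟨hyO, hyx⟩, hne⟩
          rw [this, hρy]
      · exact hρO y hyO)
    rw [Set.ncard_sdiff_singleton_of_mem (show σ x ∈ O \ {x} from ⟨hσx, hxx⟩),
      Set.ncard_sdiff_singleton_of_mem hx] at this
    omega

/-- Extremal abelian subgroups of the alternating group. -/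
structure Ext (A : Subgroup (Perm α)) : Prop where
  comm : IsMulCommutative A
  even : A ≤ alternatingGroup α
  card : Nat.card A = ∏ ω, osz A ω
  size : ∀ ω, osz A ω = 3 ∨ osz A ω = 4

omit [DecidableEq α] in
theorem exists_restr {A : Subgroup (Perm α)} (hA : IsMulCommutative A)
    (hc : Nat.card A = ∏ ω, osz A ω) {a : Perm α} (ha : a ∈ A) (x : α) :
    ∃ b ∈ A, (∀ y ∈ orbit A x, b y = a y) ∧ ∀ y, y ∉ orbit A x → b y = y := by
  classical
  obtain ⟨b, hb, h⟩ := (card_dvd_and_surj hA).2 hc (fun y => if y ∈ orbit A x then a y else y)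
    (fun y => by
      split_ifs
      · exact ⟨⟨a, ha⟩, rfl⟩
      · exact mem_orbit_self _)
  refine ⟨b, hb, fun y hy => ?_, fun y hy => ?_⟩
  · obtain ⟨z, hz, hz'⟩ := h x
    rw [if_pos hz] at hz'
    exact apply_eq_of_comm hA hb ha (by rw [orbit_eq_iff.mpr hz]; exact hy) hz'
  · obtain ⟨z, hz, hz'⟩ := h y
    have hzx : z ∉ orbit A x := fun hzx => hy (by
      rw [← orbit_eq_iff.mpr hzx, orbit_eq_iff.mpr hz]; exact mem_orbit_self _)
    rw [if_neg hzx] at hz'
    exact apply_eq_of_comm hA hb A.one_mem (by rw [orbit_eq_iff.mpr hz]; exact mem_orbit_self _) hz'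

theorem ext_of_large {A : Subgroup (Perm α)} (hA : IsMulCommutative A)
    (he : A ≤ alternatingGroup α) (h2 : 2 ≤ Fintype.card α)
    (h : 8 * fA (Fintype.card α) ≤ 9 * Nat.card A) : Ext A := by
  obtain ⟨k, hk⟩ := (card_dvd_and_surj hA).1
  have h1 := prod_le_fA Finset.univ (osz A) (osz_pos A)
  rw [sum_osz] at h1
  have hp : 0 < ∏ ω, osz A ω := Finset.prod_pos fun ω _ => osz_pos A ω
  have hpos : 0 < Nat.card A := Nat.card_pos
  have hk1 : k = 1 := by
    rcases Nat.lt_or_ge k 2 with hk2 | hk2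
    · rcases Nat.eq_zero_or_pos k with rfl | hk0
      · rw [hk] at hp; simp at hp
      · omega
    · have : Nat.card A * 2 ≤ Nat.card A * k := Nat.mul_le_mul_left _ hk2
      omega
  rw [hk1, mul_one] at hk
  refine ⟨hA, he, hk.symm, fun ω => ?_⟩
  have h3 := eq_of_prod_large Finset.univ (osz A) (osz_pos A) (by rw [sum_osz]; exact h2)
    (by rw [sum_osz, hk]; exact h) (Finset.mem_univ ω)
  rcases h3 with h3 | h3
  · exfalso
    have : ∃ y ∈ orbit A ω.out, y ≠ ω.out := by
      by_contra hn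
      push Not at hn
      have : orbit A ω.out = {ω.out} :=
        Set.eq_singleton_iff_unique_mem.mpr ⟨mem_orbit_self _, hn⟩
      unfold osz at h3
      rw [this] at h3
      simp at h3
    obtain ⟨_, ⟨a, rfl⟩, hy⟩ := this
    obtain ⟨b, hb, hb1, hb2⟩ := exists_restr hA hk.symm a.2 ω.out
    have := eq_one_of_support_le_two (mem_alternatingGroup.mp (he hb))
      ((card_support_le hb2).trans (le_of_eq h3))
    apply hy
    have h4 := hb1 _ (mem_orbit_self _)
    rw [this] at h4
    exact h4.symm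
  · exact h3

theorem Ext.conj_mem {A B : Subgroup (Perm α)} (hA : Ext A) (hB : Ext B) {g : Perm α}
    (hg : ∀ x y, y ∈ orbit A x ↔ g y ∈ orbit B (g x)) {a : Perm α} (ha : a ∈ A) :
    g * a * g⁻¹ ∈ B := by
  obtain ⟨b, hb, h⟩ := (card_dvd_and_surj hB.comm).2 hB.card (g * a * g⁻¹ : Perm α) (fun y => by
    have := (hg (g⁻¹ y) (a (g⁻¹ y))).mp ⟨⟨a, ha⟩, rfl⟩
    simpa using this)
  suffices hh : g * a * g⁻¹ = b by rw [hh]; exact hb
  ext x
  obtain ⟨y, hy, hy'⟩ := h x
  obtain ⟨a', ha', ha1, ha2⟩ := exists_restr hA.comm hA.card ha (g⁻¹ x)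
  obtain ⟨b', hb', hb1, hb2⟩ := exists_restr hB.comm hB.card hb x
  have hO : ∀ z, z ∈ orbit B x ↔ g⁻¹ z ∈ orbit A (g⁻¹ x) := fun z => by rw [hg]; simp
  have key : g * a' * g⁻¹ = b' := by
    refine eq_of_semiregular (O := orbit B x) (by rw [← osz_mk]; exact hB.size _) ?_
      (mem_alternatingGroup.mp (hB.even hb')) (fun z hz => ?_) hb2 (fun z hz hzz => ?_)
      (fun z hz hzz => ?_) hy ?_
    · rw [map_mul, map_mul, mem_alternatingGroup.mp (hA.even ha')]; simp
    · rw [Perm.mul_apply, Perm.mul_apply, ha2 _ (fun h' => hz ((hO z).mpr h'))]; simp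
    · have h1 : a' (g⁻¹ z) = g⁻¹ z := by
        rw [Perm.mul_apply, Perm.mul_apply] at hzz
        exact (Perm.eq_inv_iff_eq).mpr hzz
      have : a' = 1 := by
        ext w
        by_cases hw : w ∈ orbit A (g⁻¹ x)
        · exact apply_eq_of_comm hA.comm ha' A.one_mem
            (by rw [orbit_eq_iff.mpr ((hO z).mp hz)]; exact hw) h1
        · exact ha2 w hw
      rw [this]; simp
    · ext w
      by_cases hw : w ∈ orbit B x
      · exact apply_eq_of_comm hB.comm hb' B.one_mem
          (by rw [orbit_eq_iff.mpr hz]; exact hw) hzz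
      · exact hb2 w hw
    · rw [hb1 y hy, hy', Perm.mul_apply, Perm.mul_apply, Perm.mul_apply, Perm.mul_apply,
        ha1 _ ((hO y).mp hy)]
  rw [← hb1 x (mem_orbit_self _), ← key, Perm.mul_apply, Perm.mul_apply, Perm.mul_apply,
    Perm.mul_apply, ha1 _ (mem_orbit_self _)]

theorem Ext.card_eq {A : Subgroup (Perm α)} (hA : Ext A) :
    Nat.card A = 3 ^ (Finset.univ.filter fun ω => osz A ω = 3).card *
      4 ^ (Finset.univ.filter fun ω => osz A ω = 4).card ∧
    Fintype.card α = 3 * (Finset.univ.filter fun ω => osz A ω = 3).card +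
      4 * (Finset.univ.filter fun ω => osz A ω = 4).card := by
  have h1 : (Finset.univ.filter fun ω => ¬ osz A ω = 3) =
      Finset.univ.filter fun ω => osz A ω = 4 := by
    ext ω
    have := hA.size ω
    simp only [Finset.mem_filter, Finset.mem_univ, true_and]
    omega
  constructor
  · rw [hA.card, ← Finset.prod_filter_mul_prod_filter_not Finset.univ (fun ω => osz A ω = 3), h1,
      Finset.prod_congr rfl (fun ω hω => (Finset.mem_filter.mp hω).2),
      Finset.prod_congr (s₁ := Finset.univ.filter fun ω => osz A ω = 4) rfl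
        (fun ω hω => (Finset.mem_filter.mp hω).2), Finset.prod_const, Finset.prod_const]
  · rw [← sum_osz A, ← Finset.sum_filter_add_sum_filter_not Finset.univ (fun ω => osz A ω = 3), h1,
      Finset.sum_congr rfl (fun ω hω => (Finset.mem_filter.mp hω).2),
      Finset.sum_congr (s₁ := Finset.univ.filter fun ω => osz A ω = 4) rfl
        (fun ω hω => (Finset.mem_filter.mp hω).2), Finset.sum_const, Finset.sum_const]
    simp [mul_comm]

theorem pow_three_four_inj {a b c d : ℕ} (h : 3 ^ a * 4 ^ b = 3 ^ c * 4 ^ d) : a = c ∧ b = d := by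
  have h3 := congrArg (fun n : ℕ => n.factorization 3) h
  have h2 := congrArg (fun n : ℕ => n.factorization 2) h
  have e4 : (4 : ℕ) = 2 ^ 2 := rfl
  simp only [e4, ← pow_mul, Nat.factorization_mul (pow_ne_zero _ three_ne_zero)
    (pow_ne_zero _ two_ne_zero), Nat.Prime.factorization_pow Nat.prime_three,
    Nat.Prime.factorization_pow Nat.prime_two, Finsupp.add_apply] at h2 h3
  simp at h2 h3
  omega

theorem Ext.exists_conj {A B : Subgroup (Perm α)} (hA : Ext A) (hB : Ext B)
    (h : Nat.card A = Nat.card B) [Nonempty α] :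
    ∃ g ∈ alternatingGroup α, ∀ a ∈ A, g * a * g⁻¹ ∈ B := by
  classical
  obtain ⟨h3, h4⟩ := pow_three_four_inj (hA.card_eq.1.symm.trans (h.trans hB.card_eq.1))
  have e0 : ∀ k, {ω // osz A ω = k} ≃ {ω // osz B ω = k} := fun k =>
    Fintype.equivOfCardEq (by
      rw [Fintype.card_subtype, Fintype.card_subtype]
      by_cases hk3 : k = 3
      · rw [hk3]; exact h3
      by_cases hk4 : k = 4
      · rw [hk4]; exact h4
      rw [Finset.filter_eq_empty_iff.mpr (fun ω _ => by have := hA.size ω; omega),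
        Finset.filter_eq_empty_iff.mpr (fun ω _ => by have := hB.size ω; omega)]
      rfl)
  let e := Equiv.ofFiberEquiv e0
  have he : ∀ ω, osz B (e ω) = osz A ω := Equiv.ofFiberEquiv_map e0
  have hfib : ∀ (C : Subgroup (Perm α)) (ω : orbitRel.Quotient C α),
      Fintype.card {x // Quotient.mk (orbitRel C α) x = ω} = osz C ω := fun C ω => by
    rw [← Nat.card_eq_fintype_card]
    unfold osz
    rw [← Nat.card_coe_set_eq]
    refine Nat.card_congr (Equiv.subtypeEquivRight fun x => ?_)
    conv_lhs => rw [← Quotient.out_eq ω]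
    rw [Quotient.eq]
    exact orbitRel_apply
  have e1 : ∀ ω, {x // e (Quotient.mk (orbitRel A α) x) = ω} ≃
      {x // Quotient.mk (orbitRel B α) x = ω} := fun ω =>
    Fintype.equivOfCardEq (by
      rw [hfib, ← e.apply_symm_apply ω, he, ← hfib]
      exact Fintype.card_congr (Equiv.subtypeEquivRight fun x => by
        simp [Equiv.eq_symm_apply]))
  let g : Perm α := Equiv.ofFiberEquiv e1
  have hg0 : ∀ x, Quotient.mk (orbitRel B α) (g x) = e (Quotient.mk (orbitRel A α) x) :=
    Equiv.ofFiberEquiv_map e1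
  have hg : ∀ x y, y ∈ orbit A x ↔ g y ∈ orbit B (g x) := fun x y => by
    rw [← orbitRel_apply, ← orbitRel_apply, ← Quotient.eq, ← Quotient.eq, hg0, hg0,
      e.apply_eq_iff_eq]
  rcases Int.units_eq_one_or (sign g) with hs | hs
  · exact ⟨g, hs, fun a ha => hA.conj_mem hB hg ha⟩
  · obtain ⟨x⟩ := ‹Nonempty α›
    have : ∃ y ∈ orbit A x, y ≠ x := by
      by_contra hn
      push Not at hn
      have h1 : orbit A x = {x} := Set.eq_singleton_iff_unique_mem.mpr ⟨mem_orbit_self _, hn⟩
      have h2 := hA.size (Quotient.mk _ x)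
      rw [osz_mk, h1] at h2
      simp at h2
    obtain ⟨y, hy, hyx⟩ := this
    have hsw : ∀ z, swap x y z ∈ orbit A z := fun z => by
      rw [swap_apply_def]
      split_ifs with h1 h2
      · rw [h1]; exact hy
      · rw [h2, orbit_eq_iff.mpr hy]; exact mem_orbit_self _
      · exact mem_orbit_self _
    refine ⟨g * swap x y, ?_, fun a ha => hA.conj_mem hB (fun u v => ?_) ha⟩
    · rw [mem_alternatingGroup, map_mul, hs, sign_swap hyx.symm]; simp
    · rw [Perm.mul_apply, Perm.mul_apply, ← hg, orbit_eq_iff.mpr (hsw u), ← orbit_eq_iff,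
        ← orbit_eq_iff, orbit_eq_iff.mpr (hsw v)]

end Orbits

/-- There is an abelian subgroup of order `c` in `S_n` (inside `A_n` when `ev`). -/
def Ab (ev : Prop) (n c : ℕ) : Prop :=
  ∃ A : Subgroup (Perm (Fin n)), IsMulCommutative A ∧ Nat.card A = c ∧
    (ev → A ≤ alternatingGroup (Fin n))

theorem Ab.add {ev : Prop} {m n c d : ℕ} (h1 : Ab ev m c) (h2 : Ab ev n d) :
    Ab ev (m + n) (c * d) := by
  obtain ⟨A, hA, hAc, hAe⟩ := h1
  obtain ⟨B, hB, hBc, hBe⟩ := h2
  let f : Perm (Fin m) × Perm (Fin n) →* Perm (Fin (m + n)) :=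
    finSumFinEquiv.permCongrHom.toMonoidHom.comp (Perm.sumCongrHom _ _)
  have hf : Function.Injective f :=
    finSumFinEquiv.permCongrHom.injective.comp Perm.sumCongrHom_injective
  refine ⟨(A.prod B).map f, ⟨⟨?_⟩⟩, ?_, fun h => ?_⟩
  · rintro ⟨_, x, hx, rfl⟩ ⟨_, y, hy, rfl⟩
    apply Subtype.ext
    change f x * f y = f y * f x
    rw [← map_mul, ← map_mul]
    congr 1
    exact Prod.ext (congrArg Subtype.val (hA.is_comm.comm ⟨_, hx.1⟩ ⟨_, hy.1⟩))
      (congrArg Subtype.val (hB.is_comm.comm ⟨_, hx.2⟩ ⟨_, hy.2⟩))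
  · rw [Subgroup.card_map_of_injective hf, Nat.card_congr (Subgroup.prodEquiv A B).toEquiv,
      Nat.card_prod, hAc, hBc]
  · rintro _ ⟨x, hx, rfl⟩
    change sign (finSumFinEquiv.permCongr (Perm.sumCongr x.1 x.2)) = 1
    rw [sign_permCongr, sign_sumCongr, mem_alternatingGroup.mp (hAe h hx.1),
      mem_alternatingGroup.mp (hBe h hx.2), mul_one]

theorem ab_zero (ev : Prop) : Ab ev 0 1 :=
  ⟨⊥, ⟨⟨fun _ _ => Subsingleton.elim _ _⟩⟩, by simp, fun _ => bot_le⟩

theorem ab_two : Ab False 2 2 :=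
  ⟨⊤, ⟨⟨fun a b => Subtype.ext (by
      have : ∀ x y : Perm (Fin 2), x * y = y * x := by decide
      exact this _ _)⟩⟩, by simp [Fintype.card_perm], False.elim⟩

theorem ab_three (ev : Prop) : Ab ev 3 3 :=
  ⟨alternatingGroup (Fin 3), alternatingGroup.isMulCommutative_of_card_le_three (by simp),
    by rw [nat_card_alternatingGroup]; simp [Nat.factorial], fun _ => le_rfl⟩

theorem ab_of_sylow (ev : Prop) (n p k : ℕ) [Fact p.Prime] (hk : k ≤ 2)
    (h : (Nat.card (alternatingGroup (Fin n))).factorization p = k) : Ab ev n (p ^ k) := by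
  obtain ⟨P⟩ : Nonempty (Sylow p (alternatingGroup (Fin n))) := inferInstance
  have hc : Nat.card ((P : Subgroup (alternatingGroup (Fin n))).map (Subgroup.subtype _)) =
      p ^ k := by
    rw [Subgroup.card_map_of_injective (Subgroup.subtype_injective _), P.card_eq_multiplicity, h]
  refine ⟨(P : Subgroup (alternatingGroup (Fin n))).map (Subgroup.subtype _), ?_, hc,
    fun _ => Subgroup.map_subtype_le _⟩
  interval_cases k
  · have : Subsingleton ((P : Subgroup (alternatingGroup (Fin n))).map (Subgroup.subtype _)) :=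
      (Nat.card_eq_one_iff_unique.mp hc).1
    exact ⟨⟨fun _ _ => Subsingleton.elim _ _⟩⟩
  · have := isCyclic_of_prime_card (hc.trans (pow_one p))
    exact this.isMulCommutative
  · exact IsPGroup.isMulCommutative_of_card_eq_prime_sq hc

theorem ab_four (ev : Prop) : Ab ev 4 4 := by
  have := ab_of_sylow ev 4 2 2 le_rfl (by
    rw [nat_card_alternatingGroup]
    have : (Nat.card (Fin 4)).factorial / 2 = 2 ^ 2 * 3 := by simp [Nat.factorial]
    rw [this, Nat.factorization_mul (by norm_num) (by norm_num),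
      Nat.Prime.factorization_pow Nat.prime_two, Nat.Prime.factorization Nat.prime_three]
    simp)
  exact this

theorem ab_five (ev : Prop) : Ab ev 5 5 := by
  have : Fact (Nat.Prime 5) := ⟨by norm_num⟩
  have := ab_of_sylow ev 5 5 1 (by norm_num) (by
    rw [nat_card_alternatingGroup]
    have : (Nat.card (Fin 5)).factorial / 2 = 5 * 12 := by simp [Nat.factorial]
    rw [this, Nat.factorization_mul (by norm_num) (by norm_num),
      Nat.Prime.factorization (by norm_num : Nat.Prime 5), Finsupp.add_apply,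
      Nat.factorization_eq_zero_of_not_dvd (by norm_num : ¬ 5 ∣ 12)]
    simp)
  exact this

theorem Ab.add_three {ev : Prop} {m c : ℕ} (h : Ab ev m c) (k : ℕ) :
    Ab ev (m + 3 * k) (c * 3 ^ k) := by
  induction k with
  | zero => simpa using h
  | succ k ih =>
    have := ih.add (ab_three ev)
    rwa [add_assoc, ← Nat.mul_succ, mul_assoc, ← pow_succ] at this

theorem Ab.alt {n c : ℕ} (h : Ab True n c) :
    ∃ A : Subgroup (alternatingGroup (Fin n)), IsMulCommutative A ∧ Nat.card A = c := by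
  obtain ⟨A, hA, hc, he⟩ := h
  refine ⟨A.subgroupOf _, ⟨⟨fun a b => Subtype.ext (Subtype.ext
    (congrArg (fun z : A => (z.1 : Perm (Fin n)))
      (hA.is_comm.comm ⟨a.1.1, a.2⟩ ⟨b.1.1, b.2⟩)))⟩⟩, ?_⟩
  rw [← hc]
  exact Nat.card_congr (Subgroup.subgroupOfEquivOfLe (he trivial)).toEquiv

theorem comm_map_subtype {G : Type*} [Group G] {H : Subgroup G} {A : Subgroup H}
    (hA : IsMulCommutative A) : IsMulCommutative (A.map H.subtype) :=
  ⟨⟨by
    rintro ⟨_, x, hx, rfl⟩ ⟨_, y, hy, rfl⟩
    exact Subtype.ext (congrArg (fun z : A => (z.1.1 : G)) (hA.is_comm.comm ⟨x, hx⟩ ⟨y, hy⟩))⟩⟩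

theorem pow_le_of_three_four {b c j : ℕ} (h : 3 * b + 4 * c = 3 * j + 8) :
    3 ^ b * 4 ^ c ≤ 16 * 3 ^ j := by
  obtain ⟨d, rfl⟩ : ∃ d, c = 3 * d + 2 := ⟨(c - 2) / 3, by omega⟩
  obtain rfl : j = b + 4 * d := by omega
  have : 4 ^ (3 * d) ≤ 3 ^ (4 * d) := by
    rw [pow_mul, pow_mul]; exact Nat.pow_le_pow_left (by norm_num) d
  rw [pow_add, pow_add]
  nlinarith [Nat.mul_le_mul_left (3 ^ b) this]

end H5.SN
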