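import Mathlib

/-!
A binomial coefficient `(d + k).choose k` with `2 ≤ k < d` has a prime factor `≤ d`, except for
`7.choose 3 = 35`.
-/

set_option autoImplicit false

open Nat

namespace H5.SN

theorem choose_dvd_of_primes {d k N : ℕ} (hkd : k < d)
    (h : ∀ p, p.Prime → p ∣ (d + k).choose k → d < p) (hN : N ≠ 0)
    (h2 : ∀ p, p.Prime → d < p → p ≤ d + k → p ∣ N) : (d + k).choose k ∣ N := by
  have h0 : (d + k).choose k ≠ 0 := (choose_pos (by omega)).ne'
  refine (factorization_prime_le_iff_dvd h0 hN).mp fun p hp => ?_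
  by_cases hd : p ∣ (d + k).choose k
  · have h1 := h p hp hd
    have h3 : p ≤ d + k := (hp.dvd_factorial).mp (hd.trans (by
      rw [← choose_mul_factorial_mul_factorial (show k ≤ d + k by omega), mul_assoc]
      exact dvd_mul_right _ _))
    exact (factorization_choose_le_one (by nlinarith)).trans
      ((hp.dvd_iff_one_le_factorization hN).mp (h2 p hp h1 h3))
  · rw [factorization_eq_zero_of_not_dvd hd]; exact Nat.zero_le _

theorem ascFactorial_split (e h : ℕ) : (2 * e + 1).ascFactorial (2 * h + 1) =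
    (∏ i ∈ Finset.range (h + 1), (2 * e + 1 + 2 * i)) * 2 ^ h * (e + 1).ascFactorial h := by
  induction h with
  | zero => simp [ascFactorial]
  | succ h ih =>
    rw [show 2 * (h + 1) + 1 = 2 * h + 1 + 1 + 1 by ring, ascFactorial_succ, ascFactorial_succ, ih,
      Finset.prod_range_succ _ (h + 1), ascFactorial_succ]
    ring

theorem dvd_prod_odd {N a m : ℕ} (hN : Odd N) (h : N ∣ m !) :
    N ∣ ∏ i ∈ Finset.range m, (a + 2 * i) := by
  obtain ⟨u, hu⟩ := hN
  have h1 : (∏ i ∈ Finset.range m, (a + 2 * i)) ≡ 2 ^ m * (a * (u + 1)).ascFactorial m [MOD N] := by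
    clear h
    induction m with
    | zero => simp [Nat.ModEq]
    | succ m ih =>
      rw [Finset.prod_range_succ, ascFactorial_succ,
        show 2 ^ (m + 1) * ((a * (u + 1) + m) * (a * (u + 1)).ascFactorial m) =
          2 ^ m * (a * (u + 1)).ascFactorial m * (a + 2 * m + N * a) by rw [hu]; ring]
      exact ih.mul (by simp [Nat.ModEq])
  exact (Nat.modEq_zero_iff_dvd).mp (h1.trans ((Nat.modEq_zero_iff_dvd).mpr
    (Dvd.dvd.mul_left (h.trans (factorial_dvd_ascFactorial _ _)) _)))

theorem exists_odd_part (h : ℕ) : ∃ N, Odd N ∧ N ∣ (h + 1)! ∧ (h + 1)! ≤ 2 ^ h * N := by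
  obtain ⟨k, N, hN, hk⟩ := Nat.exists_eq_two_pow_mul_odd (factorial_ne_zero (h + 1))
  refine ⟨N, hN, hk ▸ dvd_mul_left _ _, ?_⟩
  have h1 := emultiplicity_two_factorial_lt (n := h + 1) (by omega)
  have h2 : (k : ℕ∞) ≤ emultiplicity 2 (h + 1)! :=
    le_emultiplicity_of_pow_dvd (hk ▸ dvd_mul_right _ _)
  have h3 : k < h + 1 := by exact_mod_cast h2.trans_lt h1
  rw [hk]
  exact Nat.mul_le_mul_right _ (Nat.pow_le_pow_right (by norm_num) (by omega))

theorem ascFactorial_lt {a b h : ℕ} (hab : a < b) : a.ascFactorial (h + 1) < b.ascFactorial (h + 1) := by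
  induction h with
  | zero => simpa [ascFactorial] using hab
  | succ h ih =>
    rw [ascFactorial_succ, ascFactorial_succ (n := b)]
    exact Nat.mul_lt_mul'' (by omega) ih

theorem choose_small_prime {d k : ℕ} (hk : 2 ≤ k) (hkd : k < d)
    (h : ∀ p, p.Prime → p ∣ (d + k).choose k → d < p) : d = 4 ∧ k = 3 := by
  have hQ : 0 < (d + k).choose k := choose_pos (by omega)
  have hev : ∀ p, p.Prime → d < p → p % 2 = 1 := fun p hp hd =>
    (hp.eq_two_or_odd).resolve_left (by omega)
  obtain ⟨j, rfl⟩ : ∃ j, k = j + 2 := ⟨k - 2, by omega⟩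
  have h1 : (d + j) % 2 = 1 := by
    by_contra hn
    have h2 := Nat.le_of_dvd (choose_pos (by omega)) (choose_dvd_of_primes hkd h
      (N := (d + j + 1).choose (j + 1)) (choose_pos (by omega)).ne' fun p hp h1 h2 =>
        hp.dvd_choose (by omega) (by omega) (by have := hev p hp h1; omega))
    have h3 := Nat.add_one_mul_choose_eq (d + j + 1) (j + 1)
    rw [show d + j + 1 + 1 = d + (j + 2) by ring, show j + 1 + 1 = j + 2 by ring] at h3
    nlinarith
  have h2 : d % 2 = 0 := by
    by_contra hn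
    have h2 := Nat.le_of_dvd (choose_pos (by omega)) (choose_dvd_of_primes hkd h
      (N := (d + (j + 2)).choose (j + 1)) (choose_pos (by omega)).ne' fun p hp h1 h2 =>
        hp.dvd_choose (by omega) (by have := hev p hp h1; omega) h2)
    have h3 := Nat.choose_succ_right_eq (d + (j + 2)) (j + 1)
    rw [show d + (j + 2) - (j + 1) = d + 1 by omega, show j + 1 + 1 = j + 2 by ring] at h3
    nlinarith
  have h3 : d + 2 ∣ (j + 2) * (j + 1) := by
    obtain ⟨t, ht⟩ := choose_dvd_of_primes hkd h (N := (d + 1) * (d + (j + 2)).choose j)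
      (mul_ne_zero (by omega) (choose_pos (by omega)).ne') fun p hp h1 h2 => by
        by_cases hp1 : p = d + 1
        · rw [hp1]; exact dvd_mul_right _ _
        · exact Dvd.dvd.mul_left
            (hp.dvd_choose (by omega) (by have := hev p hp h1; omega) h2) _
    have h3 := Nat.choose_succ_right_eq (d + (j + 2)) (j + 1)
    rw [show d + (j + 2) - (j + 1) = d + 1 by omega, show j + 1 + 1 = j + 2 by ring] at h3
    have h4 := Nat.choose_succ_right_eq (d + (j + 2)) j
    rw [show d + (j + 2) - j = d + 2 by omega] at h4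
    refine ⟨t, Nat.eq_of_mul_eq_mul_left hQ ?_⟩
    calc (d + (j + 2)).choose (j + 2) * ((j + 2) * (j + 1))
        = (d + (j + 2)).choose (j + 1) * (j + 1) * (d + 1) := by
          rw [← mul_assoc, h3]; ring
      _ = (d + 2) * ((d + 1) * (d + (j + 2)).choose j) := by rw [h4]; ring
      _ = _ := by rw [ht]; ring
  obtain ⟨e, rfl⟩ : ∃ e, d = 2 * e := ⟨d / 2, by omega⟩
  obtain ⟨g, rfl⟩ : ∃ g, j = 2 * g + 1 := ⟨j / 2, by omega⟩
  obtain ⟨N, hN, hN1, hN2⟩ := exists_odd_part (g + 1)
  have h4 := ascFactorial_split e (g + 1)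
  rw [ascFactorial_eq_factorial_mul_choose, show 2 * (g + 1) + 1 = 2 * g + 1 + 2 by ring] at h4
  have hO : (∏ i ∈ Finset.range (g + 1 + 1), (2 * e + 1 + 2 * i)) ≠ 0 :=
    Finset.prod_ne_zero_iff.mpr fun i _ => by omega
  have h5 : (2 * e + (2 * g + 1 + 2)).choose (2 * g + 1 + 2) * N ∣
      ∏ i ∈ Finset.range (g + 1 + 1), (2 * e + 1 + 2 * i) := by
    refine Nat.Coprime.mul_dvd_of_dvd_of_dvd ?_ (choose_dvd_of_primes hkd h hO fun p hp h1 h2 => ?_)
      (dvd_prod_odd hN hN1)
    · refine Nat.coprime_of_dvd fun p hp h1 h2 => ?_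
      have := h p hp h1
      have := (hp.dvd_factorial).mp (h2.trans hN1)
      omega
    · have := hev p hp h1
      have h6 : p = 2 * e + 1 + 2 * ((p - 2 * e) / 2) := by omega
      rw [h6]
      exact Finset.dvd_prod_of_mem (fun i => 2 * e + 1 + 2 * i) (Finset.mem_range.mpr (by omega))
  have h6 := Nat.le_of_dvd (Nat.pos_of_ne_zero hO) h5
  have h7 := factorial_mul_ascFactorial (g + 1 + 1) (g + 1)
  rw [show g + 1 + 1 + (g + 1) = 2 * g + 1 + 2 by ring] at h7
  have h8 : e = g + 2 := by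
    by_contra hne
    have h9 := ascFactorial_lt (h := g) (show g + 1 + 1 + 1 < e + 1 by omega)
    have h10 : 0 < (g + 1 + 1)! := factorial_pos _
    generalize (2 * e + (2 * g + 1 + 2)).choose (2 * g + 1 + 2) = Q at *
    generalize (∏ i ∈ Finset.range (g + 1 + 1), (2 * e + 1 + 2 * i)) = O at *
    generalize (e + 1).ascFactorial (g + 1) = X at *
    generalize (g + 1 + 1 + 1).ascFactorial (g + 1) = Y at *
    generalize (g + 1 + 1)! = F at *
    generalize 2 ^ (g + 1) = T at *
    rw [← h7] at h4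
    have h11 : Q * (F * Y) < Q * (F * X) :=
      Nat.mul_lt_mul_of_pos_left (Nat.mul_lt_mul_of_pos_left h9 h10) hQ
    have h12 : Q * (F * X) ≤ Q * (T * N * X) :=
      Nat.mul_le_mul_left _ (Nat.mul_le_mul_right _ hN2)
    have h13 : Q * N * (T * X) ≤ O * (T * X) := Nat.mul_le_mul_right _ h6
    nlinarith
  subst h8
  have h9 : 2 * (g + 2) + 2 ∣ 12 := by
    have : (2 * g + 1 + 2) * (2 * g + 1 + 1) + (2 * (g + 2) + 2) =
        (2 * (g + 2) + 2) * (2 * g) + 12 := by ring
    have h10 := (Nat.dvd_add_right (dvd_mul_right _ (2 * g))).mp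
      (this ▸ Nat.dvd_add h3 (dvd_refl _))
    exact h10
  have h10 := Nat.le_of_dvd (by norm_num) h9
  have h11 : g ≤ 3 := by omega
  interval_cases g
  · simp
  · omega
  · omega
  · have := h 2 Nat.prime_two (by decide +kernel)
    omega

end H5.SN
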