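import Mathlib
import Cfsg.Agent.Lib.SN.Full
import Cfsg.Agent.Lib.Comp.FStar
import Cfsg.Agent.Lib.Char.BurnsidePQ

/-!
Permutation groups with quasisimple generalized Fitting subgroup containing a large Sylow subgroup.
-/

set_option autoImplicit false

open MulAction Equiv Equiv.Perm H61 Cfsg

namespace H5.SN

variable {α : Type*} [Fintype α] [DecidableEq α]

theorem nonempty_altOn_equiv (D : Set α) :
    Nonempty ((alternatingGroup α ⊓ symOn D : Subgroup (Perm α)) ≃*
      alternatingGroup (Fin D.ncard)) := by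
  classical
  let s : Finset α := D.toFinite.toFinset
  have h1 : ((alternatingGroup α).subtype.comp (alternatingGroup.ofSubtype s)).range =
      alternatingGroup α ⊓ symOn D := by
    ext g
    constructor
    · rintro ⟨k, rfl⟩
      refine ⟨(alternatingGroup.ofSubtype s k).2, mem_symOn.mpr fun x hx => ?_⟩
      by_contra h
      exact hx (by simpa [s] using
        (alternatingGroup.mem_range_ofSubtype_iff s _).mp ⟨k, rfl⟩ (mem_support.mpr h))
    · intro hg
      obtain ⟨k, hk⟩ := (alternatingGroup.mem_range_ofSubtype_iff s ⟨g, hg.1⟩).mpr fun x hx => by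
        by_contra h
        exact mem_support.mp hx (mem_symOn.mp hg.2 x (by simpa [s] using h))
      exact ⟨k, congrArg Subtype.val hk⟩
  have e : s ≃ Fin D.ncard := Fintype.equivFinOfCardEq (by
    rw [Fintype.card_coe, Set.ncard_eq_toFinset_card D D.toFinite])
  exact ⟨(MulEquiv.subgroupCongr h1).symm.trans ((MonoidHom.ofInjective
    (f := (alternatingGroup α).subtype.comp (alternatingGroup.ofSubtype s))
    ((Subgroup.subtype_injective _).comp alternatingGroup.ofSubtype_injective)).symm.trans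
      e.altCongrHom)⟩

/-- `L` is a self-centralizing quasisimple normal subgroup of `H`. -/
structure QS {G : Type*} [Group G] (H L : Subgroup G) : Prop where
  le : L ≤ H
  qs : IsQuasisimple L
  norm : H ≤ Subgroup.normalizer (L : Set G)
  cent : H ⊓ Subgroup.centralizer (L : Set G) ≤ L

theorem qs_fStar {G : Type*} [Group G] [Finite G] {H : Subgroup G}
    (h : IsQuasisimple (generalizedFittingSubgroup H)) :
    QS H ((generalizedFittingSubgroup H).map H.subtype) :=
  ⟨Subgroup.map_subtype_le _, (H23.isQuasisimple_map_iff (Subgroup.subtype_injective _) _).mpr h,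
    by
      have := Subgroup.le_normalizer_map (H := generalizedFittingSubgroup H) H.subtype
      rwa [Subgroup.normalizer_eq_top, ← MonoidHom.range_eq_map, Subgroup.range_subtype] at this,
    H23.inf_centralizer_map_fStar_le H⟩

theorem QS.le_or {G : Type*} [Group G] {H L K : Subgroup G} (h : QS H L) (hK : K ≤ H)
    (hn : L ≤ Subgroup.normalizer (K : Set G)) :
    L ≤ K ∨ K ≤ Subgroup.centralizer (L : Set G) := by
  rcases H23.IsQuasisimple.eq_or_le_centralizer h.qs (N := L ⊓ K) inf_le_left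
    (fun g hg => Subgroup.inf_normalizer_le_normalizer_inf ⟨Subgroup.le_normalizer hg, hn hg⟩)
    with h1 | h1
  · exact Or.inl (inf_eq_left.mp h1)
  · right
    rw [← Subgroup.commutator_eq_bot_iff_le_centralizer]
    refine H23.commutator_eq_bot_of_perfect (H23.IsQuasisimple.commutator_self h.qs) ?_
    rw [Subgroup.commutator_eq_bot_iff_le_centralizer]
    refine le_trans (le_inf ?_ ?_) h1
    · exact Subgroup.le_normalizer_iff_commutator_le_right.mp (hK.trans h.norm)
    · exact Subgroup.le_normalizer_iff_commutator_le_left.mp hn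

theorem not_mem_of_centralizes {L : Subgroup (Perm α)} (hL : ⁅L, L⁆ = L) {σ : Perm α}
    (hσ : σ.IsCycle) (hc : σ ∈ Subgroup.centralizer (L : Set (Perm α))) : σ ∉ L := by
  intro hσL
  obtain ⟨x, hx, -⟩ := id hσ
  have key : ∀ l ∈ L, ∃ i : ℕ, ∀ y, σ y ≠ y → l y = (σ ^ i) y := fun l hl => by
    have h1 : Commute l σ := hc l hl
    have h2 : σ (l x) ≠ l x := by
      rw [← Perm.mul_apply, ← h1.eq, Perm.mul_apply]; exact l.injective.ne hx
    obtain ⟨i, hi⟩ := hσ.exists_pow_eq hx h2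
    refine ⟨i, fun y hy => ?_⟩
    obtain ⟨j, rfl⟩ := hσ.exists_pow_eq hx hy
    rw [← Perm.mul_apply, (h1.pow_right j).eq, Perm.mul_apply, ← hi, ← Perm.mul_apply,
      ← Perm.mul_apply, ← pow_add, ← pow_add, add_comm]
  have h3 : ⁅L, L⁆ ≤ stabilizer (Perm α) x := by
    rw [Subgroup.commutator_le]
    intro a ha b hb
    obtain ⟨i, hi⟩ := key _ (L.inv_mem ha)
    obtain ⟨j, hj⟩ := key _ (L.inv_mem hb)
    have hp : ∀ k : ℕ, σ ((σ ^ k) x) ≠ (σ ^ k) x := fun k =>
      mem_support.mp (pow_apply_mem_support.mpr (mem_support.mpr hx))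
    change (a * b * a⁻¹ * b⁻¹) x = x
    have : (a⁻¹ * b⁻¹) x = (b⁻¹ * a⁻¹) x := by
      rw [Perm.mul_apply, Perm.mul_apply, hj x hx, hi x hx, hi _ (hp j), hj _ (hp i),
        ← Perm.mul_apply, ← Perm.mul_apply, ← pow_add, ← pow_add, add_comm]
    rw [mul_assoc, Perm.mul_apply, this]
    simp
  rw [hL] at h3
  exact hx (h3 hσL)

theorem QS.le_altOn {H L : Subgroup (Perm α)} (h : QS H L) {x : α} (hx : Full H (blk H x)) :
    L ≤ alternatingGroup α ⊓ symOn (blk H x) := by
  let N : Subgroup (Perm α) :=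
    { carrier := {g | ∀ x, g x ∈ blk H x}
      one_mem' := fun x => mem_blk_self x
      mul_mem' := fun {a b} ha hb x => by
        rw [Perm.mul_apply, ← blk_eq_of_mem (hb x)]; exact ha _
      inv_mem' := fun {a} ha x => by
        rw [mem_blk_comm]; simpa using ha (a⁻¹ x) }
  have hN : ∀ g ∈ H, ∀ k ∈ H ⊓ N, g * k * g⁻¹ ∈ H ⊓ N := fun g hg k hk =>
    ⟨H.mul_mem (H.mul_mem hg hk.1) (H.inv_mem hg), fun v => by
      have h6 : g (k (g⁻¹ v)) ∈ g '' blk H (g⁻¹ v) := ⟨_, hk.2 (g⁻¹ v), rfl⟩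
      rw [image_blk (le_partStab_blk hg)] at h6
      simpa using h6⟩
  have hAN : alternatingGroup α ⊓ symOn (blk H x) ≤ H ⊓ N := fun g hg => ⟨hx.le hg, fun y => by
    by_cases hy : y ∈ blk H x
    · rw [blk_eq_of_mem hy]; exact apply_mem_of_mem_symOn hg.2 hy
    · rw [mem_symOn.mp hg.2 y hy]; exact mem_blk_self y⟩
  have hnc : ¬ alternatingGroup α ⊓ symOn (blk H x) ≤ Subgroup.centralizer (L : Set (Perm α)) :=
    fun hc => by
      obtain ⟨c, hc1, hc2, hc3⟩ := exists_cycle_in (by norm_num) hx.three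
      have hc4 : c ∈ alternatingGroup α ⊓ symOn (blk H x) :=
        ⟨mem_alt_of_cycle hc1 (by rw [hc2]; decide), hc3⟩
      exact not_mem_of_centralizes (H23.IsQuasisimple.commutator_self h.qs) hc1 (hc hc4)
        (h.cent ⟨hx.le hc4, hc hc4⟩)
  have hLN : L ≤ H ⊓ N := (h.le_or inf_le_left (Subgroup.le_normalizer_iff.mpr
    (fun g hg k hk => hN g (h.le hg) k hk))).resolve_right fun hc => hnc (hAN.trans hc)
  refine (h.le_or hx.le (Subgroup.le_normalizer_iff.mpr fun g hg k hk =>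
    ⟨(alternatingGroup.normal).conj_mem k hk.1 g, conj_mem_symOn (fun y hy => ?_) hk.2⟩)).resolve_right
    hnc
  rw [← blk_eq_of_mem hy]
  exact (hLN hg).2 y

theorem QS.eq_altOn {H L : Subgroup (Perm α)} (h : QS H L) {x : α} (hx : Full H (blk H x)) :
    L = alternatingGroup α ⊓ symOn (blk H x) ∧ ∀ y, Full H (blk H y) → y ∈ blk H x := by
  have h1 := h.le_altOn hx
  constructor
  · obtain ⟨e⟩ := nonempty_altOn_equiv (blk H x)
    have h5 : 5 ≤ (blk H x).ncard := by
      by_contra h5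
      have : Group.IsSolvable (Perm (Fin (blk H x).ncard)) :=
        H8.isSolvable_of_two_primes Nat.prime_two Nat.prime_three fun r hr hd => by
          rw [Nat.card_perm, hr.dvd_factorial, Nat.card_eq_fintype_card, Fintype.card_fin] at hd
          by_contra hn
          have := hr.five_le_of_ne_two_of_ne_three (fun e => hn (Or.inl e))
            (fun e => hn (Or.inr e))
          omega
      exact H23.IsQuasisimple.not_le_of_isSolvable h.qs
        (Group.isSolvable_of_isSolvable_injective (f := e.toMonoidHom) e.injective) h1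
    have : IsSimpleGroup (alternatingGroup (Fin (blk H x).ncard)) :=
      alternatingGroup.isSimpleGroup (by simpa using h5)
    have : IsSimpleGroup (alternatingGroup α ⊓ symOn (blk H x) : Subgroup (Perm α)) :=
      e.isSimpleGroup
    have h2 : (L.subgroupOf (alternatingGroup α ⊓ symOn (blk H x))).Normal :=
      (Subgroup.normal_subgroupOf_iff_le_normalizer h1).mpr (hx.le.trans h.norm)
    rcases h2.eq_bot_or_eq_top with h3 | h3
    · rw [Subgroup.subgroupOf_eq_bot, disjoint_iff, inf_eq_left.mpr h1] at h3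
      exact absurd h3 (H23.IsQuasisimple.ne_bot h.qs)
    · exact le_antisymm h1 (Subgroup.subgroupOf_eq_top.mp h3)
  · intro y hy
    by_contra hn
    refine H23.IsQuasisimple.ne_bot h.qs (eq_bot_iff.mpr fun g hg => ?_)
    rw [Subgroup.mem_bot]
    ext z
    by_cases hz : z ∈ blk H x
    · exact mem_symOn.mp (h.le_altOn hy hg).2 z fun hz' => hn
        (mem_blk_iff.mpr ((blk_eq_of_mem hz').symm.trans (blk_eq_of_mem hz)))
    · exact mem_symOn.mp (h1 hg).2 z hz

theorem QS.of_three {H L : Subgroup (Perm α)} (h : QS H L) (hn : 3 ≤ Fintype.card α)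
    (h3 : ¬ 3 ∣ H.relIndex (alternatingGroup α)) :
    ∃ D : Set α, L = alternatingGroup α ⊓ symOn D ∧ Fintype.card α ≤ D.ncard + 2 := by
  obtain ⟨x, -, hx⟩ := exists_full h3 (T := Set.univ)
    (by rwa [Set.ncard_univ, Nat.card_eq_fintype_card])
  obtain ⟨h1, h2⟩ := h.eq_altOn hx
  refine ⟨_, h1, ?_⟩
  by_contra hlt
  have hc := Set.ncard_add_ncard_compl (blk H x)
  rw [Nat.card_eq_fintype_card] at hc
  obtain ⟨y, hy, hy'⟩ := exists_full h3 (T := (blk H x)ᶜ) (by omega)
  exact hy (h2 y hy')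

/-- The permutations moving every point at most to its partner under the involution `z`. -/
def pairFlip (z : Perm α) (hz : z * z = 1) : Subgroup (Perm α) where
  carrier := {σ | ∀ x, σ x = x ∨ σ x = z x}
  one_mem' := fun _ => Or.inl rfl
  mul_mem' := fun {a b} ha hb x => by
    have h1 : z (z x) = x := by rw [← Perm.mul_apply, hz]; rfl
    rw [Perm.mul_apply]
    rcases hb x with h | h <;> rw [h]
    · exact ha x
    · rcases ha (z x) with h' | h' <;> rw [h']
      · exact Or.inr rfl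
      · exact Or.inl h1
  inv_mem' := fun {a} ha x => by
    rcases ha (a⁻¹ x) with h | h
    · left; rw [← h]; simp
    · right
      have h1 : z (z (a⁻¹ x)) = a⁻¹ x := by rw [← Perm.mul_apply, hz]; rfl
      rw [← h1, ← h]; simp

omit [Fintype α] [DecidableEq α] in
theorem pairFlip_comm {z : Perm α} {hz : z * z = 1} {a b : Perm α} (ha : a ∈ pairFlip z hz)
    (hb : b ∈ pairFlip z hz) : a * b = b * a := by
  have h1 : ∀ x, z (z x) = x := fun x => by rw [← Perm.mul_apply, hz]; rfl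
  have key : ∀ c ∈ pairFlip z hz, ∀ x, c (z x) = z (c x) := fun c hc x => by
    rcases hc x with h | h
    · rcases hc (z x) with h' | h'
      · rw [h, h']
      · rw [h1] at h'
        have h2 := c.injective (h'.trans h.symm)
        rw [h2, h, h2]
    · rcases hc (z x) with h' | h'
      · have h2 := c.injective (h'.trans h.symm)
        rw [h2, h, h2, h2]
      · rw [h', h]
  ext x
  simp only [Perm.mul_apply]
  rcases ha x with h | h <;> rcases hb x with h' | h' <;> rw [h, h']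
  · rw [h]
  · rw [key a ha, h]
  · rw [key b hb, h, h']
  · rw [key a ha, key b hb, h, h']

omit [Fintype α] [DecidableEq α] in
theorem pairFlip_sq {z : Perm α} {hz : z * z = 1} {a : Perm α} (ha : a ∈ pairFlip z hz) :
    a * a = 1 := by
  have h1 : ∀ x, z (z x) = x := fun x => by rw [← Perm.mul_apply, hz]; rfl
  ext x
  rw [Perm.mul_apply, Perm.one_apply]
  rcases ha x with h | h
  · rw [h, h]
  · rcases ha (z x) with h' | h'
    · have h2 := a.injective (h'.trans h.symm)
      rw [h, h2, h, h2]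
    · rw [h, h', h1]

omit [Fintype α] in
theorem swap_mem_pairFlip {z : Perm α} {hz : z * z = 1} (x : α) : swap x (z x) ∈ pairFlip z hz := by
  intro y
  rw [swap_apply_def]
  split_ifs with h1 h2
  · right; rw [h1]
  · right; rw [h2, ← Perm.mul_apply, hz]; rfl
  · left; rfl

omit [Fintype α] [DecidableEq α] in
theorem conj_mem_pairFlip {z g σ : Perm α} {hz : z * z = 1} (hz' : g * z * g⁻¹ * (g * z * g⁻¹) = 1)
    (h : σ ∈ pairFlip z hz) : g * σ * g⁻¹ ∈ pairFlip (g * z * g⁻¹) hz' := fun x => by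
  rcases h (g⁻¹ x) with h1 | h1
  · left; simp only [Perm.mul_apply, h1]; simp
  · right; simp only [Perm.mul_apply, h1]

/-- Two pairings whose even flips generate no 3-cycle. -/
theorem comm_of_no_three {H : Subgroup (Perm α)} (h3 : ¬ ∃ σ ∈ H, IsThreeCycle σ)
    (h8 : 8 ≤ Fintype.card α) {z w : Perm α} {hz : z * z = 1} {hw : w * w = 1}
    (hz1 : ∀ x y, z x = x → z y = y → x = y) (hw1 : ∀ x y, w x = x → w y = y → x = y)
    (hzH : pairFlip z hz ⊓ alternatingGroup α ≤ H) (hwH : pairFlip w hw ⊓ alternatingGroup α ≤ H)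
    (hne : z ≠ w) : z * w = w * z ∧ Fintype.card α ≤ 9 := by
  have hzz : ∀ x, z (z x) = x := fun x => by rw [← Perm.mul_apply, hz]; rfl
  have hww : ∀ x, w (w x) = x := fun x => by rw [← Perm.mul_apply, hw]; rfl
  have hcard : ∀ (y : Perm α), (∀ a b, y a = a → y b = b → a = b) → ∀ (l : List α) (a b c d : α),
      l.length ≤ 2 → ∃ u, u ∉ l ∧ u ≠ a ∧ u ≠ b ∧ u ≠ c ∧ u ≠ d ∧ y u ≠ u := by
    intro y hy l a b c d hl
    obtain ⟨u, hu⟩ := exists_not_mem_list (a :: b :: c :: d :: l) (by simp; omega)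
    simp only [List.mem_cons, not_or] at hu
    by_cases h : y u = u
    · obtain ⟨v, hv⟩ := exists_not_mem_list (u :: a :: b :: c :: d :: l) (by simp; omega)
      simp only [List.mem_cons, not_or] at hv
      exact ⟨v, hv.2.2.2.2.2, hv.2.1, hv.2.2.1, hv.2.2.2.1, hv.2.2.2.2.1,
        fun h' => hv.1 (hy _ _ h' h)⟩
    · exact ⟨u, hu.2.2.2.2, hu.1, hu.2.1, hu.2.2.1, hu.2.2.2.1, h⟩
  -- the basic configuration
  have key : ∀ x u v, z x ≠ x → w x ≠ x → z x ≠ w x →
      u ≠ x → u ≠ z x → u ≠ w x → u ≠ z (w x) → z u ≠ u →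
      v ≠ x → v ≠ w x → v ≠ z x → v ≠ w (z x) → w v ≠ v →
      (u = v ∨ u = w v ∨ z u = v ∨ z u = w v) ∧ ¬ (u = v ∧ z u = w v) := by
    intro x u v h1 h2 h4 u1 u2 u3 u4 u5 v1 v2 v3 v4 v5
    have u6 : z u ≠ x := fun e => u2 (by rw [← e, hzz])
    have u7 : z u ≠ z x := z.injective.ne u1
    have u8 : z u ≠ w x := fun e => u4 (by rw [← e, hzz])
    have v6 : w v ≠ x := fun e => v2 (by rw [← e, hww])
    have v7 : w v ≠ w x := w.injective.ne v1
    have v8 : w v ≠ z x := fun e => v4 (by rw [← e, hww])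
    have hcom : ¬ Commute (swap u (z u)) (swap v (w v)) := fun c24 => by
      have m1 : swap x (z x) * swap u (z u) ∈ H := hzH ⟨mul_mem (swap_mem_pairFlip x)
        (swap_mem_pairFlip u), swap_mul_swap_mem_alt h1.symm u5.symm⟩
      have m2 : swap x (w x) * swap v (w v) ∈ H := hwH ⟨mul_mem (swap_mem_pairFlip x)
        (swap_mem_pairFlip v), swap_mul_swap_mem_alt h2.symm v5.symm⟩
      have c21 : Commute (swap u (z u)) (swap x (z x)) := commute_swap_swap u1 u2 u6 u7
      have c23 : Commute (swap u (z u)) (swap x (w x)) := commute_swap_swap u1 u3 u6 u8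
      have c41 : Commute (swap v (w v)) (swap x (z x)) := commute_swap_swap v1 v3 v6 v8
      have c43 : Commute (swap v (w v)) (swap x (w x)) := commute_swap_swap v1 v2 v6 v7
      refine h3 ⟨_, H.pow_mem (H.mul_mem m1 m2) 2, ?_⟩
      have e1 : swap x (z x) * swap u (z u) * (swap x (w x) * swap v (w v)) =
          (swap x (z x) * swap x (w x)) * (swap u (z u) * swap v (w v)) := by
        simp only [mul_assoc]
        rw [← mul_assoc (swap u (z u)), c23.eq, mul_assoc]
      have hc : Commute (swap x (z x) * swap x (w x)) (swap u (z u) * swap v (w v)) :=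
        ((c21.mul_right c23).mul_left (c41.mul_right c43)).symm
      rw [e1, hc.mul_pow, c24.mul_pow, sq (swap u (z u)), sq (swap v (w v)), swap_mul_self,
        swap_mul_self, mul_one, mul_one, sq]
      exact (isThreeCycle_swap_mul_swap_same h1.symm h2.symm h4).isThreeCycle_sq
    refine ⟨?_, fun h => hcom (by rw [h.2, h.1])⟩
    by_contra hn
    push Not at hn
    exact hcom (commute_swap_swap hn.1 hn.2.1 hn.2.2.1 hn.2.2.2)
  -- structure outside the four points
  have hcl : ∀ (z w : Perm α), (∀ x, z (z x) = x) → ∀ x u,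
      (u ≠ x ∧ u ≠ z x ∧ u ≠ w x ∧ u ≠ z (w x) ∧ z u ≠ u) →
      z u ≠ x ∧ z u ≠ z x ∧ z u ≠ w x ∧ z u ≠ z (w x) ∧ z (z u) ≠ z u :=
    fun z w hzz x u ⟨u1, u2, u3, u4, u5⟩ => ⟨fun e => u2 (by rw [← e, hzz]), z.injective.ne u1,
      fun e => u4 (by rw [← e, hzz]), z.injective.ne u3, z.injective.ne u5⟩
  have key2 : ∀ x, z x ≠ x → w x ≠ x → z x ≠ w x → ∀ u,
      (u ≠ x ∧ u ≠ z x ∧ u ≠ w x ∧ u ≠ z (w x) ∧ z u ≠ u) ↔
        (u ≠ x ∧ u ≠ w x ∧ u ≠ z x ∧ u ≠ w (z x) ∧ w u ≠ u) := by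
    intro x h1 h2 h4 u
    constructor
    · intro hu
      obtain ⟨a, -, ha⟩ := hcard w hw1 [] x (w x) (z x) (w (z x)) (by simp)
      obtain ⟨b, hb0, hb⟩ := hcard w hw1 [a, w a] x (w x) (z x) (w (z x)) (by simp)
      simp only [List.mem_cons, List.not_mem_nil, or_false, not_or] at hb0
      have k1 := (key x u a h1 h2 h4 hu.1 hu.2.1 hu.2.2.1 hu.2.2.2.1 hu.2.2.2.2 ha.1 ha.2.1
        ha.2.2.1 ha.2.2.2.1 ha.2.2.2.2).1
      have k2 := (key x u b h1 h2 h4 hu.1 hu.2.1 hu.2.2.1 hu.2.2.2.1 hu.2.2.2.2 hb.1 hb.2.1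
        hb.2.2.1 hb.2.2.2.1 hb.2.2.2.2).1
      rcases k1 with rfl | rfl | k1 | k1
      · exact ha
      · exact hcl w z hww x a ha
      all_goals
        rcases k2 with rfl | rfl | k2 | k2
        · exact hb
        · exact hcl w z hww x b hb
        · exact absurd (k2.symm.trans k1) (by tauto)
        · exfalso
          have k3 := congrArg w (k2.symm.trans k1)
          simp only [hww] at k3
          tauto
    · intro hu
      obtain ⟨a, -, ha⟩ := hcard z hz1 [] x (z x) (w x) (z (w x)) (by simp)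
      obtain ⟨b, hb0, hb⟩ := hcard z hz1 [a, z a] x (z x) (w x) (z (w x)) (by simp)
      simp only [List.mem_cons, List.not_mem_nil, or_false, not_or] at hb0
      have k1 := (key x a u h1 h2 h4 ha.1 ha.2.1 ha.2.2.1 ha.2.2.2.1 ha.2.2.2.2 hu.1 hu.2.1
        hu.2.2.1 hu.2.2.2.1 hu.2.2.2.2).1
      have k2 := (key x b u h1 h2 h4 hb.1 hb.2.1 hb.2.2.1 hb.2.2.2.1 hb.2.2.2.2 hu.1 hu.2.1
        hu.2.2.1 hu.2.2.2.1 hu.2.2.2.2).1
      rcases k1 with rfl | k1 | rfl | k1
      · exact ha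
      · rcases k2 with rfl | k2 | rfl | k2
        · exact hb
        · exact absurd (k2.trans k1.symm) hb0.1
        · exact hcl z w hzz x b hb
        · exact absurd (by rw [← (k2.trans k1.symm), hzz]) hb0.2
      · exact hcl z w hzz x a ha
      · rcases k2 with rfl | k2 | rfl | k2
        · exact hb
        · exact absurd (k2.trans k1.symm) hb0.2
        · exact hcl z w hzz x b hb
        · exact absurd (z.injective (k2.trans k1.symm)) hb0.1
  have key3 : ∀ x, z x ≠ x → w x ≠ x → z x ≠ w x → ∀ u,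
      (u ≠ x ∧ u ≠ z x ∧ u ≠ w x ∧ u ≠ z (w x) ∧ z u ≠ u) → ∀ t,
      (t ≠ x ∧ t ≠ z x ∧ t ≠ w x ∧ t ≠ z (w x) ∧ z t ≠ t) →
      t = u ∨ t = w u ∨ t = z u ∨ t = z (w u) := by
    intro x h1 h2 h4 u hu t ht
    have hu' := (key2 x h1 h2 h4 u).mp hu
    rcases (key x t u h1 h2 h4 ht.1 ht.2.1 ht.2.2.1 ht.2.2.2.1 ht.2.2.2.2 hu'.1 hu'.2.1
      hu'.2.2.1 hu'.2.2.2.1 hu'.2.2.2.2).1 with h | h | h | h
    · exact Or.inl h
    · exact Or.inr (Or.inl h)
    · exact Or.inr (Or.inr (Or.inl (by rw [← h, hzz])))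
    · exact Or.inr (Or.inr (Or.inr (by rw [← h, hzz])))
  have key4 : ∀ x, z x ≠ x → w x ≠ x → z x ≠ w x → ∀ u,
      (u ≠ x ∧ u ≠ z x ∧ u ≠ w x ∧ u ≠ z (w x) ∧ z u ≠ u) →
      w u ≠ u ∧ z u ≠ w u ∧ w (z u) = z (w u) := by
    intro x h1 h2 h4 u hu
    have hu' := (key2 x h1 h2 h4 u).mp hu
    have h5 : z u ≠ w u := fun e => (key x u u h1 h2 h4 hu.1 hu.2.1 hu.2.2.1 hu.2.2.2.1 hu.2.2.2.2
      hu'.1 hu'.2.1 hu'.2.2.1 hu'.2.2.2.1 hu'.2.2.2.2).2 ⟨rfl, e⟩
    have h6 := (key2 x h1 h2 h4 _).mp (hcl z w hzz x u hu)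
    refine ⟨hu'.2.2.2.2, h5, ?_⟩
    rcases key3 x h1 h2 h4 u hu _ ((key2 x h1 h2 h4 _).mpr (hcl w z hww x _ h6)) with h | h | h | h
    · exact absurd (by rw [← h, hww, h]) h5
    · exact absurd (w.injective h) hu.2.2.2.2
    · exact absurd h h6.2.2.2.2
    · exact h
  obtain ⟨x, h1, h2, h4⟩ : ∃ x, z x ≠ x ∧ w x ≠ x ∧ z x ≠ w x := by
    obtain ⟨x, hx⟩ : ∃ x, z x ≠ w x := by
      by_contra h
      push Not at h
      exact hne (Equiv.ext h)
    by_cases h1 : z x = x
    · have h2 : w x ≠ x := fun e => hx (h1.trans e.symm)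
      exact ⟨w x, fun e => h2 (hz1 _ _ e h1), w.injective.ne h2, by
        rw [hww]; exact fun e => h2 (by rw [← hzz (w x), e, h1])⟩
    by_cases h2 : w x = x
    · exact ⟨z x, z.injective.ne h1, fun e => h1 (hw1 _ _ e h2), by
        rw [hzz]; exact fun e => h1 (by rw [← hww (z x), ← e, h2])⟩
    exact ⟨x, h1, h2, hx⟩
  obtain ⟨u, -, hu⟩ := hcard z hz1 [] x (z x) (w x) (z (w x)) (by simp)
  obtain ⟨k1, k2, -⟩ := key4 x h1 h2 h4 u hu
  have hu1 := hcl z w hzz x u hu
  have hu2 := (key2 x h1 h2 h4 _).mpr (hcl w z hww x _ ((key2 x h1 h2 h4 u).mp hu))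
  have hu3 := hcl z w hzz x _ hu2
  constructor
  · have h5 : ∀ p, z p ≠ p → w (z p) = z (w p) := fun p hp => by
      by_cases hT : p ≠ x ∧ p ≠ z x ∧ p ≠ w x ∧ p ≠ z (w x) ∧ z p ≠ p
      · exact (key4 x h1 h2 h4 p hT).2.2
      · refine (key4 u hu.2.2.2.2 k1 k2 p ⟨?_, ?_, ?_, ?_, hp⟩).2.2 <;> rintro rfl
        exacts [hT hu, hT hu1, hT hu2, hT hu3]
    ext p
    rw [Perm.mul_apply, Perm.mul_apply]
    by_cases hp : z p = p
    · obtain ⟨q, hq⟩ := (z * w).surjective (w (z p))
      rw [Perm.mul_apply] at hq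
      by_cases hq' : z q = q
      · rw [← hq, hz1 _ _ hq' hp]
      · rw [← h5 q hq'] at hq
        exact absurd (by rw [z.injective (w.injective hq), hp]) hq'
    · exact (h5 p hp).symm
  · by_contra h9
    obtain ⟨a, ha⟩ := exists_not_mem_list [x, z x, w x, z (w x), u, w u, z u, z (w u)]
      (by simp; omega)
    obtain ⟨b, hb⟩ := exists_not_mem_list [a, x, z x, w x, z (w x), u, w u, z u, z (w u)]
      (by simp; omega)
    simp only [List.mem_cons, List.not_mem_nil, or_false, not_or] at ha hb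
    by_cases hza : z a = a
    · have := key3 x h1 h2 h4 u hu b ⟨hb.2.1, hb.2.2.1, hb.2.2.2.1, hb.2.2.2.2.1,
        fun e => hb.1 (hz1 _ _ e hza)⟩
      tauto
    · have := key3 x h1 h2 h4 u hu a ⟨ha.1, ha.2.1, ha.2.2.1, ha.2.2.2.1, hza⟩
      tauto

theorem exists_pairing {H : Subgroup (Perm α)} (h2 : ¬ 2 ∣ H.relIndex (alternatingGroup α)) :
    ∃ (z : Perm α) (hz : z * z = 1), (∀ x y, z x = x → z y = y → x = y) ∧
      z.cycleType = Multiset.replicate (Fintype.card α / 2) 2 ∧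
      pairFlip z hz ⊓ alternatingGroup α ≤ H := by
  obtain ⟨P, hPH, hP⟩ := exists_sylIn_alt h2
  obtain ⟨z, hz⟩ := (exists_with_cycleType_iff α
    (m := Multiset.replicate (Fintype.card α / 2) 2)).mpr
    ⟨by simp; omega, fun a ha => (Multiset.eq_of_mem_replicate ha).ge⟩
  have key : ∀ z : Perm α, z.cycleType = Multiset.replicate (Fintype.card α / 2) 2 →
      z * z = 1 ∧ ∀ x y, z x = x → z y = y → x = y := fun z hz => by
    refine ⟨?_, fun x y hx hy => ?_⟩
    · rw [← sq, ← orderOf_dvd_iff_pow_eq_one, ← lcm_cycleType, Multiset.lcm_dvd]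
      intro b hb
      rw [hz] at hb
      rw [Multiset.eq_of_mem_replicate hb]
    · by_contra hne
      have h1 := sum_cycleType z
      rw [hz] at h1
      have h3 : z.support ⊆ (Finset.univ.erase x).erase y := fun t ht => by
        simp only [Finset.mem_erase, Finset.mem_univ, and_true]
        exact ⟨fun e => mem_support.mp ht (e ▸ hy), fun e => mem_support.mp ht (e ▸ hx)⟩
      have h4 := Finset.card_le_card h3
      rw [Finset.card_erase_of_mem (by simpa using Ne.symm hne),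
        Finset.card_erase_of_mem (Finset.mem_univ _), Finset.card_univ] at h4
      have h5 : 1 < Fintype.card α := Fintype.one_lt_card_iff.mpr ⟨x, y, hne⟩
      simp at h1
      omega
  obtain ⟨g, -, hg⟩ := hP.exists_conj (Q := pairFlip z (key z hz).1 ⊓ alternatingGroup α)
    (fun a => ⟨1, Subtype.ext (by rw [pow_one, sq]; exact pairFlip_sq a.2.1)⟩) inf_le_right
  have hz' : (g * z * g⁻¹).cycleType = Multiset.replicate (Fintype.card α / 2) 2 := by
    rw [cycleType_conj, hz]
  refine ⟨g * z * g⁻¹, (key _ hz').1, (key _ hz').2, hz', fun σ hσ => ?_⟩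
  have h1 : g⁻¹ * σ * g⁻¹⁻¹ ∈ pairFlip z (key z hz).1 := fun x => by
    rcases hσ.1 (g x) with h | h
    · left; simp [h]
    · right; simp [h]
  simpa [mul_assoc] using hPH (hg _ ⟨h1, (alternatingGroup.normal).conj_mem σ hσ.2 g⁻¹⟩)

theorem QS.exists_three {H L : Subgroup (Perm α)} (h : QS H L) (h8 : 8 ≤ Fintype.card α)
    (h2 : ¬ 2 ∣ H.relIndex (alternatingGroup α)) : ∃ σ ∈ H, IsThreeCycle σ := by
  by_contra h3
  obtain ⟨z, hz, hz1, hzc, hzH⟩ := exists_pairing h2
  have hns : ∀ K : Subgroup (Perm α), (∀ a ∈ K, ∀ b ∈ K, a * b = b * a) → ¬ L ≤ K := fun K hK =>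
    H23.IsQuasisimple.not_le_of_isSolvable h.qs
      (Group.isSolvable_of_comm fun a b => Subtype.ext (hK a a.2 b b.2))
  have hconj : ∀ g ∈ H, ∃ hz' : g * z * g⁻¹ * (g * z * g⁻¹) = 1,
      (∀ x y, (g * z * g⁻¹) x = x → (g * z * g⁻¹) y = y → x = y) ∧
      pairFlip (g * z * g⁻¹) hz' ⊓ alternatingGroup α ≤ H := fun g hg => by
    refine ⟨by rw [conj_mul, hz]; simp, fun x y hx hy => g⁻¹.injective (hz1 _ _ ?_ ?_),
      fun σ hσ => ?_⟩
    · exact Perm.eq_inv_iff_eq.mpr hx
    · exact Perm.eq_inv_iff_eq.mpr hy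
    · have h1 : g⁻¹ * σ * g⁻¹⁻¹ ∈ pairFlip z hz := fun x => by
        rcases hσ.1 (g x) with h | h
        · left; simp [h]
        · right; simp [h]
      have h4 := hzH ⟨h1, (alternatingGroup.normal).conj_mem σ hσ.2 g⁻¹⟩
      simpa [mul_assoc] using H.mul_mem (H.mul_mem hg h4) (H.inv_mem hg)
  have hLz : ∀ l ∈ L, l * z * l⁻¹ = z := by
    by_cases h9 : Fintype.card α ≤ 9
    · have hzA : z ∈ H := hzH ⟨fun x => Or.inr rfl, mem_alternatingGroup.mpr (by
        rw [sign_of_cycleType, hzc, show Fintype.card α / 2 = 4 by omega]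
        decide)⟩
      let K : Subgroup (Perm α) := Subgroup.closure {t | ∃ g ∈ H, t = g * z * g⁻¹}
      have hK : ∀ a ∈ K, ∀ b ∈ K, a * b = b * a := by
        have := Subgroup.isMulCommutative_closure (k := {t | ∃ g ∈ H, t = g * z * g⁻¹}) (by
          rintro _ ⟨a, ha, rfl⟩ _ ⟨b, hb, rfl⟩
          by_cases hne : a * z * a⁻¹ = b * z * b⁻¹
          · rw [hne]
          · obtain ⟨a1, a2, a3⟩ := hconj a ha
            obtain ⟨b1, b2, b3⟩ := hconj b hb
            exact (comm_of_no_three h3 h8 a2 b2 a3 b3 hne).1)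
        exact fun a ha b hb => congrArg Subtype.val (this.is_comm.comm ⟨a, ha⟩ ⟨b, hb⟩)
      have h4 := (h.le_or (K := K) ((Subgroup.closure_le _).mpr (by
        rintro _ ⟨g, hg, rfl⟩
        exact H.mul_mem (H.mul_mem hg hzA) (H.inv_mem hg)))
        (Subgroup.le_normalizer_iff.mpr fun l hl k hk => by
          have : K.map (MulAut.conj l).toMonoidHom ≤ K := by
            rw [MonoidHom.map_closure, Subgroup.closure_le]
            rintro _ ⟨_, ⟨g, hg, rfl⟩, rfl⟩
            exact Subgroup.subset_closure ⟨l * g, H.mul_mem (h.le hl) hg, by simp [mul_assoc]⟩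
          exact this ⟨k, hk, rfl⟩)).resolve_left (hns K hK)
      intro l hl
      rw [h4 (Subgroup.subset_closure ⟨1, H.one_mem, by simp⟩) l hl, mul_inv_cancel_right]
    · intro l hl
      by_contra hne
      obtain ⟨a1, a2, a3⟩ := hconj l (h.le hl)
      exact h9 (comm_of_no_three h3 h8 a2 hz1 a3 hzH hne).2
  have h4 := (h.le_or hzH (Subgroup.le_normalizer_iff.mpr fun l hl k hk =>
    ⟨fun x => by
      have := conj_mem_pairFlip (g := l) (by rw [hLz l hl, hz]) hk.1 x
      rwa [hLz l hl] at this, (alternatingGroup.normal).conj_mem k hk.2 l⟩)).resolve_left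
    (hns _ fun a ha b hb => pairFlip_comm ha.1 hb.1)
  refine hns (pairFlip z hz) (fun a ha b hb => pairFlip_comm ha hb) fun l hl x => ?_
  have hlz : ∀ y, l (z y) = z (l y) := fun y => by
    conv_rhs => rw [← hLz l hl]
    simp
  have hzz : ∀ x, z (z x) = x := fun x => by rw [← Perm.mul_apply, hz]; rfl
  by_cases hx : z x = x
  · left
    exact hz1 _ _ (by rw [← hlz, hx]) hx
  · by_contra hn
    push Not at hn
    obtain ⟨y, hy, hy1⟩ : ∃ y, y ∉ [x, z x, l x, z (l x)] ∧ z y ≠ y := by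
      obtain ⟨a, ha⟩ := exists_not_mem_list [x, z x, l x, z (l x)] (by simp; omega)
      by_cases h : z a = a
      · obtain ⟨b, hb⟩ := exists_not_mem_list [a, x, z x, l x, z (l x)] (by simp; omega)
        rw [List.mem_cons, not_or] at hb
        exact ⟨b, hb.2, fun e => hb.1 (hz1 _ _ e h)⟩
      · exact ⟨a, ha, h⟩
    simp only [List.mem_cons, List.not_mem_nil, or_false, not_or] at hy
    have h5 := h4 (show swap x (z x) * swap y (z y) ∈ pairFlip z hz ⊓ alternatingGroup α from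
      ⟨mul_mem (swap_mem_pairFlip x) (swap_mem_pairFlip y),
        swap_mul_swap_mem_alt (Ne.symm hx) (Ne.symm hy1)⟩) l hl
    have h6 := congrArg (fun σ : Perm α => σ x) h5
    simp only [Perm.mul_apply] at h6
    rw [swap_apply_of_ne_of_ne (Ne.symm hy.1) (fun e => hy.2.1 (by rw [e, hzz])), swap_apply_left,
      swap_apply_of_ne_of_ne (Ne.symm hy.2.2.1) (fun e => hy.2.2.2 (by rw [e, hzz])),
      swap_apply_of_ne_of_ne hn.1 hn.2] at h6
    exact hx (l.injective h6)

theorem QS.of_two {H L : Subgroup (Perm α)} (h : QS H L) (h8 : 8 ≤ Fintype.card α)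
    (h2 : ¬ 2 ∣ H.relIndex (alternatingGroup α)) :
    ∃ D : Set α, L = alternatingGroup α ⊓ symOn D ∧ Fintype.card α ≤ D.ncard + 3 := by
  obtain ⟨σ, hσ, h3⟩ := h.exists_three h8 h2
  obtain ⟨x, hx, -⟩ := id h3.isCycle
  have hF : Full H (blk H x) := full_blk_of_ne (apply_mem_blk_of_threeCycle hσ h3 x) hx
  obtain ⟨h1, h4⟩ := h.eq_altOn hF
  refine ⟨_, h1, ?_⟩
  by_contra hlt
  have hc := Set.ncard_add_ncard_compl (blk H x)
  rw [Nat.card_eq_fintype_card] at hc
  obtain ⟨a, ha, b, c, d, hV⟩ := exists_V4_meet h2 (T := (blk H x)ᶜ) (by omega)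
  have hinv : ∀ g ∈ H, ∀ y, y ∈ blk H x → g y ∈ blk H x := fun g hg y hy =>
    h4 _ (full_blk_of_two_le (by
      rw [ncard_blk_apply (le_partStab_blk hg), blk_eq_of_mem hy]; have := hF.three; omega))
  have hout : ∀ {b c d}, V4 H a b c d → b ∉ blk H x := fun {b c d} hV hb => ha (by
    have := hinv _ hV.m1 b hb
    rwa [Perm.mul_apply, swap_apply_of_ne_of_ne hV.bc hV.bd, swap_apply_right] at this)
  have h5 : swap a b * swap c d ∈ symOn (blk H x)ᶜ :=
    mul_mem (swap_mem_symOn ha (hout hV)) (swap_mem_symOn (hout hV.s23) (hout hV.s34.s23))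
  have h6 : swap a b * swap c d ∈ L := h.cent ⟨hV.m1, fun l hl => by
    rw [h1] at hl
    ext y
    by_cases hy : y ∈ blk H x
    · rw [Perm.mul_apply, mem_symOn.mp h5 y (not_not.mpr hy), Perm.mul_apply _ l,
        mem_symOn.mp h5 _ (not_not.mpr (apply_mem_of_mem_symOn hl.2 hy))]
    · rw [Perm.mul_apply, mem_symOn.mp hl.2 _ (apply_mem_of_mem_symOn h5 hy), Perm.mul_apply _ l,
        mem_symOn.mp hl.2 y hy]⟩
  rw [h1] at h6
  have h7 := mem_symOn.mp h6.2 a ha
  rw [Perm.mul_apply, swap_apply_of_ne_of_ne hV.ac hV.ad, swap_apply_left] at h7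
  exact hV.ab h7.symm

end H5.SN
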