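import Mathlib
import Cfsg.Agent.Lib.SN.Full
import Cfsg.Agent.Lib.SN.Binom
import Cfsg.Agent.Lib.FGS.FrobCount

/-!
Hall subgroups of symmetric and alternating groups (P. Hall, Thompson): the shape of a
`π`-subgroup of `S_n` containing a Sylow `p`-subgroup of `A_n` for every `p ∈ π`.
-/

set_option autoImplicit false

open MulAction Equiv Equiv.Perm H61

namespace H5.SN

variable {α : Type*} [Fintype α] [DecidableEq α]

/-- The permutations preserving every fibre of `f`. -/
def fibFix {ι : Type*} (f : α → ι) : Subgroup (Perm α) where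
  carrier := {g | f ∘ g = f}
  one_mem' := rfl
  mul_mem' := fun {a b} ha hb => by
    change (f ∘ a) ∘ b = f
    rw [ha, hb]
  inv_mem' := fun {a} ha => by
    ext x
    have := congrFun ha (a⁻¹ x)
    simpa using this.symm

omit [DecidableEq α] in
theorem card_fibFix {ι : Type*} [Fintype ι] (f : α → ι) :
    Nat.card (fibFix f) = ∏ i, ({a | f a = i}.ncard).factorial :=
  DomMulAct.stabilizer_ncard (f := f)

omit [DecidableEq α] in
/-- The permutations preserving two disjoint sets. -/
theorem card_dvd_of_fix_two {H : Subgroup (Perm α)} {A B : Set α} (hAB : Disjoint A B)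
    (hA : ∀ g ∈ H, ∀ x, g x ∈ A ↔ x ∈ A) (hB : ∀ g ∈ H, ∀ x, g x ∈ B ↔ x ∈ B) :
    Nat.card H ∣ A.ncard.factorial * B.ncard.factorial *
      (Fintype.card α - (A.ncard + B.ncard)).factorial := by
  classical
  let f : α → Fin 3 := fun x => if x ∈ A then 0 else if x ∈ B then 1 else 2
  have h1 : H ≤ fibFix f := fun g hg => funext fun x => by
    simp only [f, Function.comp_apply, hA g hg, hB g hg]
  have h2 := Subgroup.card_dvd_of_le h1
  rw [card_fibFix, Fin.prod_univ_three] at h2
  have e0 : {a | f a = 0} = A := by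
    ext x; simp only [f, Set.mem_ofPred_eq]; split_ifs <;> simp [*]
  have e1 : {a | f a = 1} = B := by
    ext x; simp only [f, Set.mem_ofPred_eq]
    split_ifs with h3 h4
    · simpa using Set.disjoint_left.mp hAB h3
    · simp [h4]
    · simp [h4]
  have e2 : {a | f a = 2} = (A ∪ B)ᶜ := by
    ext x; simp only [f, Set.mem_ofPred_eq]; split_ifs <;> simp [*]
  have e3 : (A ∪ B)ᶜ.ncard = Fintype.card α - (A.ncard + B.ncard) := by
    rw [← Set.ncard_union_eq hAB, ← Nat.card_eq_fintype_card,
      ← Set.ncard_add_ncard_compl (A ∪ B)]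
    omega
  rwa [e0, e1, e2, e3] at h2

omit [Fintype α] [DecidableEq α] in
theorem card_dvd_two_mul [Finite α] {H K : Subgroup (Perm α)}
    (h : ∀ a ∈ H, ∀ b ∈ H, a ∉ K → b ∉ K → a * b ∈ K) : Nat.card H ∣ 2 * Nat.card (H ⊓ K : Subgroup _) := by
  have h1 : K.relIndex H ∣ 2 := by
    rw [Subgroup.relIndex_dvd_two_iff]
    by_cases hle : H ≤ K
    · exact ⟨1, H.one_mem, fun b hb => Or.inr (hle hb)⟩
    · obtain ⟨a, ha, ha'⟩ := SetLike.not_le_iff_exists.mp hle
      exact ⟨a, ha, fun b hb => (em (b ∈ K)).symm.imp_left fun hb' => h b hb a ha hb' ha'⟩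
  have h2 : Nat.card (H ⊓ K : Subgroup _) * K.relIndex H = Nat.card H := by
    rw [← Subgroup.inf_relIndex_left, Subgroup.relIndex,
      ← Nat.card_congr (Subgroup.subgroupOfEquivOfLe (inf_le_left : H ⊓ K ≤ H)).toEquiv,
      Subgroup.card_mul_index]
  rw [← h2, mul_comm]
  exact Nat.mul_dvd_mul_right h1 _

theorem dvd_index_of_card_dvd {G : Type*} [Group G] [Finite G] {H : Subgroup G} {X C : ℕ}
    (h : Nat.card H ∣ X) (hX : X * C = Nat.card G) : C ∣ H.index := by
  obtain ⟨t, rfl⟩ := h
  refine ⟨t, Nat.eq_of_mul_eq_mul_left (Nat.card_pos (α := H)) ?_⟩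
  rw [H.card_mul_index, ← hX]; ring

theorem index_eq_relIndex_alt {K : Subgroup (Perm α)} {x y : α} (hxy : x ≠ y)
    (h : swap x y ∈ K) : K.index = K.relIndex (alternatingGroup α) := by
  have : Nontrivial α := ⟨x, y, hxy⟩
  have h1 : K ⊔ alternatingGroup α = ⊤ := (eq_alt_or_top le_sup_right).resolve_left fun e =>
    swap_not_mem_alt hxy (e ▸ Subgroup.mem_sup_left h)
  have h2 := Subgroup.relIndex_inf_mul_relIndex K (alternatingGroup α) ⊤
  have h3 := Subgroup.relIndex_inf_mul_relIndex (alternatingGroup α) K ⊤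
  have h4 : (alternatingGroup α).relIndex K = 2 := by
    rw [← Subgroup.relIndex_sup_right, h1, Subgroup.relIndex_top_right,
      alternatingGroup.index_eq_two]
  simp only [inf_top_eq, Subgroup.relIndex_top_right] at h2 h3
  rw [h4, inf_comm] at h3
  rw [alternatingGroup.index_eq_two] at h2
  omega

/-- The stabilizer of the unordered pair `{D, Dᶜ}`. -/
def pairStab (D : Set α) : Subgroup (Perm α) := H98.partStab fun x => x ∈ D

omit [Fintype α] [DecidableEq α] in
theorem mem_pairStab {D : Set α} {g : Perm α} :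
    g ∈ pairStab D ↔ (∀ x, g x ∈ D ↔ x ∈ D) ∨ ∀ x, g x ∈ D ↔ x ∉ D := by
  rw [pairStab, H98.mem_partStab]
  simp only [eq_iff_iff]
  constructor
  · intro h
    by_contra hn
    push Not at hn
    obtain ⟨⟨x, hx⟩, y, hy⟩ := hn
    have := h x y
    tauto
  · rintro (h | h) x y
    · rw [h, h]
    · rw [h, h]; tauto

omit [DecidableEq α] in
theorem card_pairStab_dvd (D : Set α) : Nat.card (pairStab D) ∣
    2 * (D.ncard.factorial * (Fintype.card α - D.ncard).factorial) := by
  let K : Subgroup (Perm α) := fibFix fun x => x ∈ D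
  have hK : ∀ g, g ∈ K ↔ ∀ x, g x ∈ D ↔ x ∈ D := fun g =>
    ⟨fun h x => iff_of_eq (congrFun h x), fun h => funext fun x => propext (h x)⟩
  refine (card_dvd_two_mul (K := K) fun a ha b hb ha' hb' => ?_).trans (Nat.mul_dvd_mul_left _ ?_)
  · rw [hK] at ha' hb' ⊢
    have h1 := (mem_pairStab.mp ha).resolve_left ha'
    have h2 := (mem_pairStab.mp hb).resolve_left hb'
    intro x
    rw [Perm.mul_apply, h1, h2, not_not]
  · have := card_dvd_of_fix_two (H := pairStab D ⊓ K) (A := D) (B := ∅) (Set.disjoint_empty _)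
      (fun g hg => (hK g).mp hg.2) (fun g hg x => by simp)
    simpa using this

theorem hall_main {π : Set ℕ} {M : Subgroup (Perm α)}
    (hM : ∀ p, p.Prime → p ∣ Nat.card M → p ∈ π)
    (hi : ∀ p, p.Prime → p ∈ π → ¬ p ∣ M.relIndex (alternatingGroup α))
    (h2 : ∃ r s : ℕ, r.Prime ∧ s.Prime ∧ r ≠ s ∧ r ∈ π ∧ s ∈ π ∧ r ≤ Fintype.card α ∧
      s ≤ Fintype.card α)
    (hns : ∃ t : ℕ, t.Prime ∧ t ≤ Fintype.card α ∧ t ∉ π) :
    ∃ D : Set α, M ≤ pairStab D ∧ 3 ≤ D.ncard ∧
      (((Fintype.card α).Prime ∧ D.ncard + 1 = Fintype.card α ∧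
        ∀ r : ℕ, r.Prime → r ≤ Fintype.card α → (r ∈ π ↔ r < Fintype.card α)) ∨
      ((Fintype.card α = 7 ∨ Fintype.card α = 8) ∧ D.ncard = 4 ∧
        ∀ r : ℕ, r.Prime → r ≤ Fintype.card α → (r ∈ π ↔ (r = 2 ∨ r = 3)))) := by
  obtain ⟨r, s, hr, hs, hrs, hrπ, hsπ, hrn, hsn⟩ := h2
  wlog hlt : r < s generalizing r s
  · exact this s r hs hr hrs.symm hsπ hrπ hsn hrn (by omega)
  have := Fact.mk hr
  have := Fact.mk hs
  have h2π : 2 ∈ π := by
    by_cases h : r = 2
    · exact h ▸ hrπ
    · exact hM 2 Nat.prime_two (two_dvd_card h hlt hsn (hi r hr hrπ) (hi s hs hsπ))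
  have h3π : 3 ∈ π := by
    by_cases h : s = 3
    · exact h ▸ hsπ
    · have h5 : 5 ≤ s := hs.five_le_of_ne_two_of_ne_three (by have := hr.two_le; omega) h
      exact hM 3 Nat.prime_three (three_dvd_card h5 hsn (hi 2 Nat.prime_two h2π) (hi s hs hsπ))
  obtain ⟨t, ht, htn, htπ⟩ := hns
  have h5 : 5 ≤ Fintype.card α := (ht.five_le_of_ne_two_of_ne_three
    (fun h => htπ (h ▸ h2π)) (fun h => htπ (h ▸ h3π))).trans htn
  have h3i := hi 3 Nat.prime_three h3π
  have hfull : ∀ D, Full M D → ∀ p, p.Prime → p ≤ D.ncard → p ∈ π := fun D hD p hp hpD => by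
    by_cases h : p = 2
    · exact h ▸ h2π
    · exact hM p hp (hD.dvd_card hp h hpD)
  have hidx : ∀ p, p.Prime → p ∈ π → ¬ p ∣ (H98.partStab (blk M)).index := fun p hp hpπ h => by
    obtain ⟨x, -, hx⟩ := exists_full h3i (T := Set.univ)
      (by rw [Set.ncard_univ, Nat.card_eq_fintype_card]; omega)
    obtain ⟨y, hy, hyx⟩ := Set.exists_ne_of_one_lt_ncard (s := blk M x)
      (by have := hx.three; omega) x
    rw [index_eq_relIndex_alt hyx (H98.swap_mem_partStab (blk_eq_of_mem hy))] at h
    exact hi p hp hpπ (h.trans (Subgroup.relIndex_dvd_of_le_left _ le_partStab_blk))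
  obtain ⟨a, ha1, ha2⟩ : ∃ a, 2 ^ a ≤ Fintype.card α ∧ Fintype.card α < 2 * 2 ^ a :=
    ⟨Nat.log 2 (Fintype.card α), Nat.pow_log_le_self 2 (by omega),
      by rw [← pow_succ']; exact Nat.lt_pow_succ_log_self (by norm_num) _⟩
  obtain ⟨c, hc, hcc, hca⟩ : ∃ c ∈ H98.partStab (blk M), c.IsCycle ∧ c.support.card = 2 ^ a := by
    obtain ⟨c, hc, hca, -⟩ := exists_cycle_in (U := (Set.univ : Set α)) (k := 2 ^ a) (by omega)
      (by rwa [Set.ncard_univ, Nat.card_eq_fintype_card])
    obtain ⟨P, hP⟩ := SylIn.exists_sylIn (p := 2) (H98.partStab (blk M))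
    have hP' := hP.of_trans le_top
      (by rw [Subgroup.relIndex_top_right]; exact hidx 2 Nat.prime_two h2π)
    obtain ⟨g, -, hg⟩ := hP'.exists_conj_mem (x := c) trivial (k := a)
      (by rw [← hca, ← hc.orderOf, pow_orderOf_eq_one])
    exact ⟨_, hP.le hg, hc.conj, by rw [card_support_conj, hca]⟩
  have hpow : ∀ x y, c x ≠ x → c y ≠ y → (blk M y).ncard = (blk M x).ncard := fun x y hx hy => by
    obtain ⟨i, rfl⟩ := hcc.exists_pow_eq hx hy
    exact ncard_blk_apply (pow_mem hc i) x
  by_cases hcase : ∃ x, (c.support : Set α) ⊆ blk M x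
  · obtain ⟨x, hx⟩ := hcase
    have hd : 2 ^ a ≤ (blk M x).ncard := by
      rw [← hca, ← Set.ncard_coe_finset]; exact Set.ncard_le_ncard hx (Set.toFinite _)
    have hD : Full M (blk M x) := full_blk_of_two_le (by omega)
    have hfix : ∀ g ∈ H98.partStab (blk M), ∀ y, g y ∈ blk M x ↔ y ∈ blk M x := fun g hg y => by
      have h1 : blk M (g x) = blk M x := by
        by_contra hne
        have h3 : Disjoint (blk M (g x)) (blk M x) := Set.disjoint_left.mpr fun z h1 h2 =>
          hne ((blk_eq_of_mem h1).symm.trans (blk_eq_of_mem h2))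
        have h4 := Set.ncard_le_card (blk M (g x) ∪ blk M x)
        rw [Set.ncard_union_eq h3, ncard_blk_apply hg, Nat.card_eq_fintype_card] at h4
        omega
      rw [mem_blk_iff, mem_blk_iff]
      conv_lhs => rw [← h1]
      exact (H98.mem_partStab.mp hg y x).symm
    have hdn : (blk M x).ncard ≤ Fintype.card α := by
      rw [← Nat.card_eq_fintype_card]; exact Set.ncard_le_card _
    obtain ⟨k, hk⟩ := Nat.exists_eq_add_of_le hdn
    have hC : ((blk M x).ncard + k).choose k ∣ (H98.partStab (blk M)).index := by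
      refine dvd_index_of_card_dvd (card_dvd_of_fix_two (A := blk M x) (B := ∅)
        (Set.disjoint_empty _) hfix (fun g hg x => by simp)) ?_
      rw [Nat.card_perm, Nat.card_eq_fintype_card, hk,
        ← Nat.add_choose_mul_factorial_mul_factorial]
      simp only [Set.ncard_empty, Nat.factorial_zero, mul_one, add_zero, add_tsub_cancel_left]
      ring
    have hbig : ∀ p, p.Prime → p ∣ ((blk M x).ncard + k).choose k → (blk M x).ncard < p :=
      fun p hp h => by
        by_contra hn
        exact hidx p hp (hfull _ hD p hp (not_lt.mp hn)) (h.trans hC)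
    refine ⟨blk M x, fun g hg => mem_pairStab.mpr (Or.inl (hfix g (le_partStab_blk hg))),
      hD.three, ?_⟩
    rcases Nat.lt_or_ge k 2 with hk2 | hk2
    · left
      have hk1 : k = 1 := by
        by_contra hk0
        exact htπ (hfull _ hD t ht (by omega))
      subst hk1
      rw [Nat.choose_one_right, ← hk] at hbig hC
      have hp : (Fintype.card α).Prime := by
        by_contra hn
        have h1 := Nat.minFac_prime (n := Fintype.card α) (by omega)
        have h2 := hbig _ h1 (Nat.minFac_dvd _)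
        have h3 := Nat.minFac_le (n := Fintype.card α) (by omega)
        exact hn ((show (Fintype.card α).minFac = Fintype.card α by omega) ▸ h1)
      refine ⟨hp, hk.symm, fun p hp' hpn => ⟨fun h => ?_, fun h => hfull _ hD p hp' (by omega)⟩⟩
      exact lt_of_le_of_ne hpn fun e => hidx p hp' h (e ▸ hC)
    · right
      obtain ⟨h4, h3⟩ := choose_small_prime hk2 (by omega) hbig
      rw [h4, h3] at hC hk
      refine ⟨Or.inl hk, h4, fun p hp hpn => ⟨fun h => ?_, ?_⟩⟩
      · by_contra hn
        have h6 := hp.five_le_of_ne_two_of_ne_three (fun e => hn (Or.inl e))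
          (fun e => hn (Or.inr e))
        refine hidx p hp h (Dvd.dvd.trans ?_ hC)
        have h7 : p ≤ 7 := by omega
        interval_cases p
        · decide
        · exact absurd hp (by norm_num)
        · decide
      · rintro (rfl | rfl)
        exacts [h2π, h3π]
  · push Not at hcase
    have hsub : ∀ x, c x ≠ x → blk M x ⊆ c.support := fun x hx y hy => by
      by_contra hy'
      have h1 : c y = y := notMem_support.mp hy'
      refine hcase x fun z hz => ?_
      obtain ⟨i, rfl⟩ := hcc.exists_pow_eq hx (mem_support.mp hz)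
      refine pow_apply_mem (fun w hw => ?_) (mem_blk_self x) i
      rw [← blk_eq_of_mem hy, ← h1, ← image_blk hc, blk_eq_of_mem hy]
      exact ⟨w, hw, rfl⟩
    obtain ⟨x, hx, -⟩ := id hcc
    have hm : ¬ 3 ∣ (blk M x).ncard := fun h => by
      have := H79.dvd_ncard_of_blocks (c.support : Set α) (Set.toFinite _) 3 (blk M)
        (fun y _ => mem_blk_self y) (fun y hy => hsub y (mem_support.mp hy))
        (fun y _ z hz => blk_eq_of_mem hz) (fun y hy => hpow x y hx (mem_support.mp hy) ▸ h)
      rw [Set.ncard_coe_finset, hca] at this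
      exact absurd (Nat.prime_three.dvd_of_dvd_pow this) (by norm_num)
    obtain ⟨y, hy, hyx⟩ := Set.not_subset.mp (hcase x)
    have hy' := mem_support.mp hy
    have hne : blk M x ≠ blk M y := fun e => hyx (e ▸ mem_blk_self y)
    have hmy := hpow x y hx hy'
    have htwo : ∀ z, (blk M z).ncard = (blk M x).ncard → blk M z = blk M x ∨ blk M z = blk M y :=
      fun z hz => blk_eq_of_not_dvd h3i hm (hmy ▸ hm) (hz ▸ hm) hne
    have hdis : Disjoint (blk M x) (blk M y) := Set.disjoint_left.mpr fun z h1 h2 =>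
      hne ((blk_eq_of_mem h1).symm.trans (blk_eq_of_mem h2))
    have hO : (c.support : Set α) = blk M x ∪ blk M y := by
      refine Set.Subset.antisymm (fun z hz => ?_) (Set.union_subset (hsub x hx) (hsub y hy'))
      exact (htwo z (hpow x z hx (mem_support.mp hz))).imp mem_blk_iff.mpr mem_blk_iff.mpr
    have h2m : (blk M x).ncard + (blk M x).ncard = 2 ^ a := by
      rw [← hca, ← Set.ncard_coe_finset, hO, Set.ncard_union_eq hdis, hmy]
    have hD : Full M (blk M x) := full_blk_of_two_le (by omega)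
    have hcases : ∀ g ∈ H98.partStab (blk M),
        (blk M (g x) = blk M x ∧ blk M (g y) = blk M y) ∨
        (blk M (g x) = blk M y ∧ blk M (g y) = blk M x) := fun g hg => by
      have h1 := htwo (g x) (ncard_blk_apply hg x)
      have h2 := htwo (g y) ((ncard_blk_apply hg y).trans hmy)
      have h3 : blk M (g x) ≠ blk M (g y) := fun e => hne ((H98.mem_partStab.mp hg x y).mpr e)
      rcases h1 with h1 | h1 <;> rcases h2 with h2 | h2
      · exact absurd (h1.trans h2.symm) h3
      · exact Or.inl ⟨h1, h2⟩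
      · exact Or.inr ⟨h1, h2⟩
      · exact absurd (h1.trans h2.symm) h3
    have hiff : ∀ g ∈ H98.partStab (blk M), ∀ u v w, blk M (g u) = blk M v →
        (g w ∈ blk M v ↔ w ∈ blk M u) := fun g hg u v w h => by
      rw [mem_blk_iff, mem_blk_iff, ← h]
      exact (H98.mem_partStab.mp hg w u).symm
    generalize hmm : (blk M x).ncard = m at h2m hmy hm htwo
    have hm3 : 3 ≤ m := hmm ▸ hD.three
    obtain ⟨k, hk⟩ := Nat.exists_eq_add_of_le (h2m ▸ ha1)
    obtain ⟨l, rfl⟩ : ∃ l, m = l + 1 := ⟨m - 1, by omega⟩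
    have hC : (l + 1 + (l + 1) + k).choose k * (l + 1 + l).choose l ∣
        (H98.partStab (blk M)).index := by
      let K : Subgroup (Perm α) := fibFix fun z => z ∈ blk M x
      have hK : ∀ g, g ∈ K ↔ ∀ z, g z ∈ blk M x ↔ z ∈ blk M x := fun g =>
        ⟨fun h x => iff_of_eq (congrFun h x), fun h => funext fun x => propext (h x)⟩
      have hK' : ∀ g ∈ H98.partStab (blk M), g ∈ K ↔ blk M (g x) = blk M x := fun g hg =>
        ⟨fun h => blk_eq_of_mem (((hK g).mp h x).mpr (mem_blk_self x)),
          fun h => (hK g).mpr fun z => hiff g hg x x z h⟩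
      have h1 := card_dvd_two_mul (H := H98.partStab (blk M)) (K := K) fun a ha b hb ha' hb' => by
        rw [hK' _ ha] at ha'
        rw [hK' _ hb] at hb'
        have h1 := ((hcases a ha).resolve_left fun h => ha' h.1).2
        have h2 := ((hcases b hb).resolve_left fun h => hb' h.1).1
        rw [hK' _ (mul_mem ha hb), Perm.mul_apply, ← h1]
        exact (H98.mem_partStab.mp ha _ _).mp h2
      have h2 := card_dvd_of_fix_two (H := H98.partStab (blk M) ⊓ K) hdis
        (fun g hg => (hK g).mp hg.2) (fun g hg z => hiff g hg.1 y y z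
          (((hcases g hg.1).resolve_right fun h => hne (((hK' g hg.1).mp hg.2).symm.trans h.1)).2))
      refine dvd_index_of_card_dvd (h1.trans (Nat.mul_dvd_mul_left _ h2)) ?_
      rw [Nat.card_perm, Nat.card_eq_fintype_card, hmm, hmy, hk, add_tsub_cancel_left,
        ← Nat.add_choose_mul_factorial_mul_factorial (l + 1 + (l + 1)) k,
        show l + 1 + (l + 1) = (l + 1 + l) + 1 by ring, Nat.factorial_succ (l + 1 + l),
        ← Nat.add_choose_mul_factorial_mul_factorial (l + 1) l, Nat.factorial_succ l]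
      ring
    obtain ⟨h4, h3⟩ := choose_small_prime (d := l + 1) (k := l) (by omega) (by omega)
      fun p hp h => by
        by_contra hn
        exact hidx p hp (hfull _ hD p hp (hmm ▸ not_lt.mp hn)) ((h.mul_left _).trans hC)
    subst h3
    have hk0 : k = 0 := by
      by_contra hk0
      refine hidx 3 Nat.prime_three h3π (Dvd.dvd.trans (Dvd.dvd.mul_right ?_ _) hC)
      have : k < 8 := by omega
      interval_cases k
      · exact absurd rfl hk0
      all_goals decide
    subst hk0
    have huniv : blk M x ∪ blk M y = Set.univ := by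
      rw [← hO]
      refine Set.eq_of_subset_of_ncard_le (Set.subset_univ _) ?_ (Set.toFinite _)
      rw [Set.ncard_univ, Nat.card_eq_fintype_card, Set.ncard_coe_finset]
      omega
    refine ⟨blk M x, fun g hg => mem_pairStab.mpr ?_, hD.three,
      Or.inr ⟨Or.inr (by omega), hmm, fun p hp hpn => ⟨fun h => ?_, ?_⟩⟩⟩
    · rcases hcases g (le_partStab_blk hg) with h | h
      · exact Or.inl fun z => hiff g (le_partStab_blk hg) x x z h.1
      · refine Or.inr fun z => ?_
        rw [hiff g (le_partStab_blk hg) y x z h.2]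
        exact ⟨fun h1 h2 => Set.disjoint_left.mp hdis h2 h1,
          fun h1 => (huniv ▸ Set.mem_univ z : z ∈ blk M x ∪ blk M y).resolve_left h1⟩
    · by_contra hn
      have h6 := hp.five_le_of_ne_two_of_ne_three (fun e => hn (Or.inl e))
        (fun e => hn (Or.inr e))
      refine hidx p hp h (Dvd.dvd.trans ?_ hC)
      have h7 : p ≤ 8 := by omega
      interval_cases p
      · decide
      · exact absurd hp (by norm_num)
      · decide
      · exact absurd hp (by norm_num)
    · rintro (rfl | rfl)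
      exacts [h2π, h3π]

end H5.SN
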