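import Mathlib
import Cfsg.Agent.Lib.SN.Hall
import Cfsg.Agent.Lib.Core.Hall

/-!
Existence and conjugacy of Hall subgroups of symmetric and alternating groups.
-/

set_option autoImplicit false

open MulAction Equiv Equiv.Perm H61 Cfsg
open scoped Pointwise

namespace H5.SN

section General

variable {G : Type*} [Group G] [Finite G] {π : Set ℕ}

theorem isD_of_one (h : ∀ r s : ℕ, r.Prime → s.Prime → r ∈ π → s ∈ π → r ∣ Nat.card G →
    s ∣ Nat.card G → r = s) : IsDPiGroup π G := by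
  intro H K hH hK
  by_cases hp : ∃ p, p.Prime ∧ p ∈ π ∧ p ∣ Nat.card G
  · obtain ⟨p, hp, hpπ, hpG⟩ := hp
    have := Fact.mk hp
    have key : ∀ L : Subgroup G, Maximal (IsPiSubgroup π) L → ∃ S : Sylow p G, L = S :=
      fun L hL => by
        have h1 : IsPGroup p L := IsPGroup.iff_card.mpr ⟨_, Nat.eq_prime_pow_of_unique_prime_dvd
          Nat.card_pos.ne' fun {q} hq hqL => h q p hq hp (hL.1 q hq hqL) hpπ
            (hqL.trans L.card_subgroup_dvd_card) hpG⟩
        obtain ⟨S, hS⟩ := h1.exists_le_sylow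
        refine ⟨S, hL.eq_of_le (fun q hq hqS => ?_) hS⟩
        obtain ⟨k, hk⟩ := IsPGroup.iff_card.mp S.2
        rw [hk] at hqS
        rwa [(Nat.prime_dvd_prime_iff_eq hq hp).mp (hq.dvd_of_dvd_pow hqS)]
    obtain ⟨S, rfl⟩ := key H hH
    obtain ⟨T, rfl⟩ := key K hK
    obtain ⟨g, rfl⟩ := MulAction.exists_smul_eq G S T
    exact ⟨g, rfl⟩
  · have key : ∀ L : Subgroup G, IsPiSubgroup π L → L = ⊥ := fun L hL => by
      rw [← Subgroup.card_eq_one]
      by_contra h1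
      obtain ⟨q, hq, hqL⟩ := Nat.exists_prime_and_dvd h1
      exact hp ⟨q, hq, hL q hq hqL, hqL.trans L.card_subgroup_dvd_card⟩
    exact ⟨1, by rw [key H hH.1, key K hK.1, Subgroup.map_bot]⟩

omit [Finite G] in
theorem isD_of_all (h : ∀ r : ℕ, r.Prime → r ∣ Nat.card G → r ∈ π) : IsDPiGroup π G := by
  intro H K hH hK
  have key : ∀ L : Subgroup G, Maximal (IsPiSubgroup π) L → L = ⊤ := fun L hL =>
    hL.eq_of_le (fun q hq hq' => h q hq (by simpa using hq')) le_top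
  exact ⟨1, by rw [key H hH, key K hK, Subgroup.map_top_of_surjective _ (MulAut.conj 1).surjective]⟩

theorem exists_maximal_ge {L : Subgroup G} (hL : IsPiSubgroup π L) :
    ∃ K, L ≤ K ∧ Maximal (IsPiSubgroup π) K :=
  Finite.exists_le_maximal hL

theorem hall_of_maximal (hD : IsDPiGroup π G) {H : Subgroup G}
    (hH : Maximal (IsPiSubgroup π) H) : IsPiHall π H := by
  refine ⟨hH.1, fun p hp hpπ h => ?_⟩
  have := Fact.mk hp
  obtain ⟨S⟩ : Nonempty (Sylow p G) := inferInstance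
  obtain ⟨K, hSK, hK⟩ := exists_maximal_ge (π := π) (L := (S : Subgroup G)) fun q hq hqS => by
    obtain ⟨k, hk⟩ := IsPGroup.iff_card.mp S.2
    rw [hk] at hqS
    rwa [(Nat.prime_dvd_prime_iff_eq hq hp).mp (hq.dvd_of_dvd_pow hqS)]
  obtain ⟨g, rfl⟩ := hD H K hH hK
  refine S.not_dvd_index (h.trans (Dvd.dvd.trans ?_ (Subgroup.index_dvd_of_le hSK)))
  rw [Subgroup.index_map_of_bijective (MulAut.conj g).bijective]

theorem isC_of_isD (hD : IsDPiGroup π G) : IsCPiGroup π G := by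
  obtain ⟨K, -, hK⟩ := exists_maximal_ge (π := π) (L := (⊥ : Subgroup G)) fun q hq h => by
    simp [hq.ne_one] at h
  have key : ∀ H : Subgroup G, IsPiHall π H → Maximal (IsPiSubgroup π) H := fun H hH =>
    ⟨hH.1, fun L hL hHL => (H3.eq_of_isPiHall_of_le hH hHL hL).le⟩
  exact ⟨⟨K, hall_of_maximal hD hK⟩, fun H L hH hL => hD H L (key H hH) (key L hL)⟩

end General

variable {α : Type} [Fintype α] [DecidableEq α] {π : Set ℕ}

/-- The numerical outcome of `hall_main`. -/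
def Outcome (π : Set ℕ) (n d : ℕ) : Prop :=
  (n.Prime ∧ d + 1 = n ∧ ∀ r : ℕ, r.Prime → r ≤ n → (r ∈ π ↔ r < n)) ∨
    ((n = 7 ∨ n = 8) ∧ d = 4 ∧ ∀ r : ℕ, r.Prime → r ≤ n → (r ∈ π ↔ (r = 2 ∨ r = 3)))

theorem Outcome.eq {n d d' : ℕ} (h : Outcome π n d) (h' : Outcome π n d') : d = d' := by
  have key : ∀ {d d'}, (n.Prime ∧ d + 1 = n ∧ ∀ r : ℕ, r.Prime → r ≤ n → (r ∈ π ↔ r < n)) →
      ((n = 7 ∨ n = 8) ∧ d' = 4 ∧ ∀ r : ℕ, r.Prime → r ≤ n → (r ∈ π ↔ (r = 2 ∨ r = 3))) →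
      False := fun h h' => by
    have h1 := h.2.2 5 (by norm_num) (by omega)
    have h2 := h'.2.2 5 (by norm_num) (by omega)
    have := h2.mp (h1.mpr (by omega))
    omega
  rcases h with h | h <;> rcases h' with h' | h'
  · omega
  · exact (key h h').elim
  · exact (key h' h).elim
  · omega

omit [DecidableEq α] in
theorem Outcome.pi {D : Set α} (h : Outcome π (Fintype.card α) D.ncard) (h3 : 3 ≤ D.ncard) :
    IsPiSubgroup π (pairStab D) := fun p hp hpD => by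
  have h1 := hpD.trans (card_pairStab_dvd D)
  rw [hp.dvd_mul, hp.dvd_mul, hp.dvd_factorial, hp.dvd_factorial,
    Nat.prime_dvd_prime_iff_eq hp Nat.prime_two] at h1
  have h2 := hp.two_le
  rcases h with ⟨-, h4, h5⟩ | ⟨h4, h5, h6⟩
  · exact (h5 p hp (by omega)).mpr (by omega)
  · refine (h6 p hp (by omega)).mpr ?_
    by_contra hn
    have := hp.five_le_of_ne_two_of_ne_three (fun e => hn (Or.inl e)) (fun e => hn (Or.inr e))
    omega

theorem outcome_of_hallOf {G H : Subgroup (Perm α)} (hG : alternatingGroup α ≤ G)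
    (hH : IsPiHallOf π H G)
    (h2 : ∃ r s : ℕ, r.Prime ∧ s.Prime ∧ r ≠ s ∧ r ∈ π ∧ s ∈ π ∧ r ≤ Fintype.card α ∧
      s ≤ Fintype.card α)
    (hns : ∃ t : ℕ, t.Prime ∧ t ≤ Fintype.card α ∧ t ∉ π) :
    ∃ D : Set α, H ≤ pairStab D ∧ 3 ≤ D.ncard ∧ Outcome π (Fintype.card α) D.ncard := by
  have h1 := H3.isPiHallOf_inf hH hG (by rw [Subgroup.normalizer_eq_top]; exact le_top)
  exact hall_main hH.2.1 (fun p hp hpπ => by
    have := h1.2.2 p hp hpπ
    rwa [Subgroup.inf_relIndex_right] at this) h2 hns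

omit [Fintype α] [DecidableEq α] in
theorem conj_mem_pairStab {D : Set α} {g x : Perm α} (hx : x ∈ pairStab D) :
    g * x * g⁻¹ ∈ pairStab (g '' D) := by
  have : ∀ y, y ∈ g '' D ↔ g⁻¹ y ∈ D := fun y => by
    obtain ⟨z, rfl⟩ := g.surjective y
    rw [g.injective.mem_set_image]; simp
  rw [mem_pairStab] at hx ⊢
  simp only [this]
  exact hx.imp (fun h y => by simpa using h (g⁻¹ y)) (fun h y => by simpa using h (g⁻¹ y))

theorem conj_of_nonstd {G H K : Subgroup (Perm α)} (hG : alternatingGroup α ≤ G)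
    (hH : IsPiHallOf π H G) (hK : IsPiHallOf π K G)
    (h2 : ∃ r s : ℕ, r.Prime ∧ s.Prime ∧ r ≠ s ∧ r ∈ π ∧ s ∈ π ∧ r ≤ Fintype.card α ∧
      s ≤ Fintype.card α)
    (hns : ∃ t : ℕ, t.Prime ∧ t ≤ Fintype.card α ∧ t ∉ π) :
    ∃ g ∈ alternatingGroup α, K = MulAut.conj g • H := by
  obtain ⟨D, h1, h3, h4⟩ := outcome_of_hallOf hG hH h2 hns
  obtain ⟨D', k1, k3, k4⟩ := outcome_of_hallOf hG hK h2 hns
  obtain ⟨g, hg, rfl⟩ := exists_image_eq_alt (h4.eq k4) (by omega)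
  have h5 : IsPiSubgroup π (pairStab (g '' D) ⊓ G) := fun p hp h =>
    k4.pi k3 p hp (h.trans (Subgroup.card_dvd_of_le inf_le_left))
  have h6 := H3.isPiHallOf_conj_smul_of_mem_normalizer hH (Subgroup.le_normalizer (hG hg))
  refine ⟨g, hg, (H3.eq_of_isPiHallOf_of_le hK (le_inf k1 hK.1) inf_le_right h5).symm.trans
    (H3.eq_of_isPiHallOf_of_le h6 (le_inf ?_ h6.1) inf_le_right h5)⟩
  rintro _ ⟨x, hx, rfl⟩
  exact conj_mem_pairStab (h1 hx)

theorem exists_hall_top_of_alt {M : Subgroup (Perm α)} (hM : IsPiHallOf π M (alternatingGroup α))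
    (h2 : ∃ r s : ℕ, r.Prime ∧ s.Prime ∧ r ≠ s ∧ r ∈ π ∧ s ∈ π ∧ r ≤ Fintype.card α ∧
      s ≤ Fintype.card α)
    (hns : ∃ t : ℕ, t.Prime ∧ t ≤ Fintype.card α ∧ t ∉ π) : IsEPiGroup π (Perm α) := by
  obtain ⟨D, h1, h3, h4⟩ := outcome_of_hallOf le_rfl hM h2 hns
  refine ⟨pairStab D, h4.pi h3, fun p hp hpπ h => hM.2.2 p hp hpπ ?_⟩
  obtain ⟨x, y, hx, hy, hxy⟩ := (Set.one_lt_ncard_iff (Set.toFinite D)).mp (by omega)
  rw [index_eq_relIndex_alt (K := pairStab D) hxy (H98.swap_mem_partStab (by simp [hx, hy]))] at h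
  exact h.trans (Subgroup.relIndex_dvd_of_le_left _ h1)

omit [DecidableEq α] in
theorem prime_dvd_card_perm {r : ℕ} (hr : r.Prime) :
    r ∣ Nat.card (Perm α) ↔ r ≤ Fintype.card α := by
  rw [Nat.card_perm, hr.dvd_factorial, Nat.card_eq_fintype_card]

theorem prime_dvd_card_alt {r : ℕ} (hr : r.Prime) (h4 : 4 ≤ Fintype.card α) :
    r ∣ Nat.card (alternatingGroup α) ↔ r ≤ Fintype.card α := by
  refine ⟨fun h => (prime_dvd_card_perm hr).mp (h.trans (Subgroup.card_subgroup_dvd_card _)),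
    fun h => ?_⟩
  have : Nontrivial α := Fintype.one_lt_card_iff_nontrivial.mp (by omega)
  have h1 := (alternatingGroup α).card_mul_index
  rw [alternatingGroup.index_eq_two] at h1
  by_cases h2 : r = 2
  · subst h2
    have h3 : 2 * 2 ∣ Nat.card (alternatingGroup α) * 2 := by
      rw [h1, Nat.card_perm, Nat.card_eq_fintype_card]
      exact Nat.dvd_factorial (by norm_num) h4
    exact Nat.dvd_of_mul_dvd_mul_right (by norm_num) h3
  · have h3 := (prime_dvd_card_perm hr).mpr h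
    rw [← h1, hr.dvd_mul, Nat.prime_dvd_prime_iff_eq hr Nat.prime_two] at h3
    exact h3.resolve_right h2

theorem isC_both_or :
    (IsCPiGroup π (Perm α) ∧ IsCPiGroup π (alternatingGroup α)) ∨
    ((∃ r s : ℕ, r.Prime ∧ s.Prime ∧ r ≠ s ∧ r ∈ π ∧ s ∈ π ∧ r ≤ Fintype.card α ∧
      s ≤ Fintype.card α) ∧ ∃ t : ℕ, t.Prime ∧ t ≤ Fintype.card α ∧ t ∉ π) := by
  by_cases h1 : ∃ r s : ℕ, r.Prime ∧ s.Prime ∧ r ≠ s ∧ r ∈ π ∧ s ∈ π ∧ r ≤ Fintype.card α ∧
      s ≤ Fintype.card α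
  · by_cases h2 : ∃ t : ℕ, t.Prime ∧ t ≤ Fintype.card α ∧ t ∉ π
    · exact Or.inr ⟨h1, h2⟩
    · push Not at h2
      exact Or.inl ⟨isC_of_isD (isD_of_all fun r hr h => h2 r hr ((prime_dvd_card_perm hr).mp h)),
        isC_of_isD (isD_of_all fun r hr h => h2 r hr ((prime_dvd_card_perm hr).mp
          (h.trans (Subgroup.card_subgroup_dvd_card _))))⟩
  · have h3 : ∀ r s : ℕ, r.Prime → s.Prime → r ∈ π → s ∈ π → r ∣ Nat.card (Perm α) →
        s ∣ Nat.card (Perm α) → r = s := fun r s hr hs h2 h3 h4 h5 => by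
      by_contra hne
      exact h1 ⟨r, s, hr, hs, hne, h2, h3, (prime_dvd_card_perm hr).mp h4,
        (prime_dvd_card_perm hs).mp h5⟩
    exact Or.inl ⟨isC_of_isD (isD_of_one h3), isC_of_isD (isD_of_one fun r s hr hs h2 h4 h5 h6 =>
      h3 r s hr hs h2 h4 (h5.trans (Subgroup.card_subgroup_dvd_card _))
        (h6.trans (Subgroup.card_subgroup_dvd_card _)))⟩

theorem isPiHall_subgroupOf_alt {M : Subgroup (Perm α)} (hM : IsPiHall π M) :
    IsPiHall π (M.subgroupOf (alternatingGroup α)) := by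
  have := (H3.isPiHallOf_iff_subgroupOf inf_le_right).mp
    (H3.isPiHallOf_inf_normal hM (alternatingGroup α))
  rwa [Subgroup.inf_subgroupOf_right] at this

theorem isE_perm_iff_alt : IsEPiGroup π (Perm α) ↔ IsEPiGroup π (alternatingGroup α) := by
  refine ⟨fun ⟨M, hM⟩ => ⟨_, isPiHall_subgroupOf_alt hM⟩, fun ⟨M, hM⟩ => ?_⟩
  rcases isC_both_or (α := α) (π := π) with h | h
  · exact h.1.1
  · exact exists_hall_top_of_alt (H3.isPiHallOf_map_subtype_iff.mpr hM) h.1 h.2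

theorem isC_perm_of_isE (h : IsEPiGroup π (Perm α)) : IsCPiGroup π (Perm α) := by
  rcases isC_both_or (α := α) (π := π) with h1 | h1
  · exact h1.1
  · refine ⟨h, fun H K hH hK => ?_⟩
    obtain ⟨g, -, hg⟩ := conj_of_nonstd le_top (H3.isPiHallOf_top_iff.mpr hH)
      (H3.isPiHallOf_top_iff.mpr hK) h1.1 h1.2
    exact ⟨g, hg⟩

theorem isC_alt_of_isE (h : IsEPiGroup π (alternatingGroup α)) :
    IsCPiGroup π (alternatingGroup α) := by
  rcases isC_both_or (α := α) (π := π) with h1 | h1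
  · exact h1.2
  · refine ⟨h, fun H K hH hK => ?_⟩
    obtain ⟨g, hg0, hg⟩ := conj_of_nonstd le_rfl (H3.isPiHallOf_map_subtype_iff.mpr hH)
      (H3.isPiHallOf_map_subtype_iff.mpr hK) h1.1 h1.2
    refine ⟨⟨g, hg0⟩, Subgroup.map_injective (Subgroup.subtype_injective _) ?_⟩
    rw [hg, Subgroup.map_map]
    exact (Subgroup.map_map _ _ _).trans rfl

omit [DecidableEq α] in
theorem isE_of_prime (hp : (Fintype.card α).Prime)
    (h : ∀ r : ℕ, r.Prime → r ≤ Fintype.card α → (r ∈ π ↔ r < Fintype.card α)) :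
    IsEPiGroup π (Perm α) := by
  obtain ⟨x⟩ : Nonempty α := Fintype.card_pos_iff.mp hp.pos
  have h1 : (stabilizer (Perm α) x).index = Fintype.card α := by
    rw [index_stabilizer_of_transitive, Nat.card_eq_fintype_card]
  refine ⟨stabilizer (Perm α) x, fun p hp' hd => ?_, fun p hp' hpπ hd => ?_⟩
  · have h2 := (stabilizer (Perm α) x).card_mul_index
    obtain ⟨m, hm⟩ : ∃ m, Fintype.card α = m + 1 := ⟨Fintype.card α - 1, by have := hp.pos; omega⟩
    rw [h1, Nat.card_perm, Nat.card_eq_fintype_card (α := α), hm, Nat.factorial_succ, mul_comm,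
      Nat.mul_right_inj (by omega)] at h2
    rw [h2, hp'.dvd_factorial] at hd
    exact (h p hp' (by omega)).mpr (by omega)
  · rw [h1, Nat.prime_dvd_prime_iff_eq hp' hp] at hd
    exact lt_irrefl _ (hd ▸ (h p hp' hd.le).mp hpπ)

omit [DecidableEq α] in
theorem isE_of_seven_eight (hn : Fintype.card α = 7 ∨ Fintype.card α = 8)
    (h : ∀ r : ℕ, r.Prime → r ≤ Fintype.card α → (r ∈ π ↔ (r = 2 ∨ r = 3))) :
    IsEPiGroup π (Perm α) := by
  classical
  obtain ⟨D, -, hD⟩ := Set.exists_subset_card_eq (s := (Set.univ : Set α)) (n := 4)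
    (by rw [Set.ncard_univ, Nat.card_eq_fintype_card]; omega)
  have hc := Set.ncard_add_ncard_compl D
  rw [Nat.card_eq_fintype_card] at hc
  have h1 : Nat.card (fibFix fun x => decide (x ∈ D)) = 24 * Dᶜ.ncard.factorial := by
    rw [card_fibFix, Fintype.prod_bool]
    congr 1
    · simp [hD, Nat.factorial]
    · simp only [decide_eq_false_iff_not]; rfl
  have h2 : (fibFix fun x => decide (x ∈ D)) ≤ pairStab D := fun g hg =>
    mem_pairStab.mpr (Or.inl fun x => by simpa using congrFun hg x)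
  have h3 := Subgroup.card_dvd_of_le h2
  have h4 := card_pairStab_dvd D
  have h5 := (pairStab D).card_mul_index
  rw [Nat.card_perm, Nat.card_eq_fintype_card (α := α)] at h5
  have h35 : (pairStab D).index ∣ 35 := by
    rcases hn with hn | hn
    · rw [h1, show Dᶜ.ncard = 3 by omega] at h3
      obtain ⟨t, ht⟩ := h3
      rw [hn, ht] at h5
      exact ⟨t, by simp [Nat.factorial] at h5; nlinarith⟩
    · obtain ⟨s, -, hs1, hs2⟩ := exists_swap_sets (A := D) (B := Dᶜ) disjoint_compl_right (by omega)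
      have hs : ∀ x, s x ∈ D ↔ x ∉ D := fun x => by
        conv_lhs => rw [← hs2]
        exact Set.smul_mem_smul_set_iff
      have hlt : (fibFix fun x => decide (x ∈ D)) < pairStab D :=
        lt_of_le_of_ne h2 fun e => by
          have h6 : s ∈ fibFix fun x => decide (x ∈ D) := e ▸ mem_pairStab.mpr (Or.inr hs)
          obtain ⟨x, hx⟩ : D.Nonempty := Set.nonempty_of_ncard_ne_zero (by omega)
          have h7 : s x ∈ D := by simpa [hx] using congrFun h6 x
          exact (hs x).mp h7 hx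
      have h6 : Nat.card (fibFix fun x => decide (x ∈ D)) < Nat.card (pairStab D) :=
        lt_of_not_ge fun h => hlt.ne (Subgroup.eq_of_le_of_card_ge h2 h)
      rw [h1, show Dᶜ.ncard = 4 by omega] at h3 h6
      rw [hD, hn] at h4
      obtain ⟨t, ht⟩ := h3
      rw [ht] at h4 h5 h6
      have h7 : t ∣ 2 := Nat.dvd_of_mul_dvd_mul_left (by norm_num : 0 < 24 * Nat.factorial 4)
        (by simpa [Nat.factorial] using h4)
      have h8 := Nat.le_of_dvd (by norm_num) h7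
      have h9 : t = 2 := by simp [Nat.factorial] at h6; omega
      rw [h9, hn] at h5
      simp [Nat.factorial] at h5
      exact dvd_of_eq (by omega)
  refine ⟨pairStab D, Outcome.pi (Or.inr ⟨hn, hD, h⟩) (by omega), fun p hp hpπ hd => ?_⟩
  have h6 : p ∣ 5 * 7 := hd.trans h35
  rw [hp.dvd_mul, Nat.prime_dvd_prime_iff_eq hp (by norm_num),
    Nat.prime_dvd_prime_iff_eq hp (by norm_num)] at h6
  have := (h p hp (by omega)).mp hpπ
  omega

theorem le_pairStab_of_isD (hD : IsDPiGroup π (alternatingGroup α))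
    (h2 : ∃ r s : ℕ, r.Prime ∧ s.Prime ∧ r ≠ s ∧ r ∈ π ∧ s ∈ π ∧ r ≤ Fintype.card α ∧
      s ≤ Fintype.card α)
    (hns : ∃ t : ℕ, t.Prime ∧ t ≤ Fintype.card α ∧ t ∉ π) :
    ∃ d, Outcome π (Fintype.card α) d ∧ ∀ L : Subgroup (Perm α), IsPiSubgroup π L →
      ∃ D : Set α, D.ncard = d ∧ L ⊓ alternatingGroup α ≤ pairStab D := by
  obtain ⟨K, -, hK⟩ := exists_maximal_ge (π := π) (L := (⊥ : Subgroup (alternatingGroup α)))
    fun q hq h => by simp [hq.ne_one] at h
  obtain ⟨D, h1, -, h3⟩ := outcome_of_hallOf le_rfl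
    (H3.isPiHallOf_map_subtype_iff.mpr (hall_of_maximal hD hK)) h2 hns
  refine ⟨_, h3, fun L hL => ?_⟩
  obtain ⟨K', h4, hK'⟩ := exists_maximal_ge (π := π) (L := L.subgroupOf (alternatingGroup α))
    fun q hq h => hL q hq (h.trans (Subgroup.card_comap_dvd_of_injective _ _
      (Subgroup.subtype_injective _)))
  obtain ⟨g, rfl⟩ := hD K K' hK hK'
  refine ⟨g.1 '' D, Set.ncard_image_of_injective _ g.1.injective, fun x hx => ?_⟩
  obtain ⟨y, hy, hy'⟩ := h4 (show (⟨x, hx.2⟩ : alternatingGroup α) ∈ L.subgroupOf _ from hx.1)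
  have : x = g.1 * y.1 * g.1⁻¹ := (congrArg Subtype.val hy').symm
  rw [this]
  exact conj_mem_pairStab (h1 ⟨y, hy, rfl⟩)

theorem not_le_pairStab_seven (D : Finset (Fin 7)) (hD : D.card = 4) :
    ¬ (((∀ x, (c[0, 1, 2] * c[3, 4, 5] : Perm (Fin 7)) x ∈ D ↔ x ∈ D) ∨
        ∀ x, (c[0, 1, 2] * c[3, 4, 5] : Perm (Fin 7)) x ∈ D ↔ x ∉ D) ∧
      ((∀ x, (swap 0 3 * swap 1 4 : Perm (Fin 7)) x ∈ D ↔ x ∈ D) ∨
        ∀ x, (swap 0 3 * swap 1 4 : Perm (Fin 7)) x ∈ D ↔ x ∉ D)) := by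
  revert D
  decide +kernel

theorem not_le_pairStab_eight (D : Finset (Fin 8)) (hD : D.card = 4) :
    ¬ (((∀ x, (c[0, 1, 2] : Perm (Fin 8)) x ∈ D ↔ x ∈ D) ∨
        ∀ x, (c[0, 1, 2] : Perm (Fin 8)) x ∈ D ↔ x ∉ D) ∧
      ((∀ x, (c[3, 4, 5] : Perm (Fin 8)) x ∈ D ↔ x ∈ D) ∨
        ∀ x, (c[3, 4, 5] : Perm (Fin 8)) x ∈ D ↔ x ∉ D) ∧
      ((∀ x, (swap 0 1 * swap 6 7 : Perm (Fin 8)) x ∈ D ↔ x ∈ D) ∨
        ∀ x, (swap 0 1 * swap 6 7 : Perm (Fin 8)) x ∈ D ↔ x ∉ D)) := by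
  revert D
  decide +kernel

theorem not_isD_alt {n : ℕ} (hD : IsDPiGroup π (alternatingGroup (Fin n))) (h5 : 5 ≤ n)
    (h2 : ∃ r s : ℕ, r.Prime ∧ s.Prime ∧ r ≠ s ∧ r ∈ π ∧ s ∈ π ∧ r ≤ n ∧ s ≤ n)
    (hns : ∃ t : ℕ, t.Prime ∧ t ≤ n ∧ t ∉ π) : False := by
  obtain ⟨d, h1, h3⟩ := le_pairStab_of_isD hD (by simpa using h2) (by simpa using hns)
  rw [Fintype.card_fin] at h1
  have hset : ∀ {m} (D : Set (Fin m)), ∃ D' : Finset (Fin m), D = D' ∧ D'.card = D.ncard :=
    fun D => ⟨D.toFinite.toFinset, by simp, (Set.ncard_eq_toFinset_card D D.toFinite).symm⟩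
  rcases h1 with ⟨hp, hd, h4⟩ | ⟨hn | hn, hd, h4⟩
  · obtain ⟨m, rfl⟩ : ∃ m, n = m + 5 := ⟨n - 5, by omega⟩
    let T : Set (Fin (m + 5)) := {0, 1}
    have h01 : (0 : Fin (m + 5)) ≠ 1 := by simp
    have hT : T.ncard = 2 := Set.ncard_pair h01
    let L : Subgroup (Perm (Fin (m + 5))) := fibFix fun x => x ∈ T
    have hL : ∀ g, g ∈ L ↔ ∀ x, g x ∈ T ↔ x ∈ T := fun g =>
      ⟨fun h x => iff_of_eq (congrFun h x), fun h => funext fun x => propext (h x)⟩
    obtain ⟨D, hD1, hD2⟩ := h3 L fun p hp' h => by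
      have h6 := h.trans (card_dvd_of_fix_two (H := L) (A := T) (B := ∅) (Set.disjoint_empty _)
        (fun g hg => (hL g).mp hg) (fun g hg x => by simp))
      rw [hp'.dvd_mul, hp'.dvd_mul, hp'.dvd_factorial, hp'.dvd_factorial, hp'.dvd_factorial, hT,
        Set.ncard_empty, Fintype.card_fin] at h6
      exact (h4 p hp' (by omega)).mpr (by omega)
    have hc := Set.ncard_add_ncard_compl D
    rw [Nat.card_eq_fintype_card, Fintype.card_fin] at hc
    obtain ⟨x, hx⟩ := Set.ncard_eq_one.mp (show Dᶜ.ncard = 1 by omega)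
    have hfix : ∀ g ∈ L ⊓ alternatingGroup (Fin (m + 5)), g x = x := fun g hg => by
      have hx1 : ∀ y, y ∉ D ↔ y = x := fun y => by rw [← Set.mem_compl_iff, hx]; rfl
      rcases mem_pairStab.mp (hD2 hg) with h | h
      · rw [← hx1, h, hx1]
      · exfalso
        obtain ⟨a, b, ha, hb, hab⟩ := (Set.one_lt_ncard_iff (Set.toFinite D)).mp (by omega)
        exact hab (g.injective (((hx1 _).mp fun h' => (h a).mp h' ha).trans
          ((hx1 _).mp fun h' => (h b).mp h' hb).symm))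
    have hTc := Set.ncard_add_ncard_compl T
    rw [Nat.card_eq_fintype_card, Fintype.card_fin] at hTc
    have hsw : ∀ a b, (a ∈ T ↔ b ∈ T) → swap a b ∈ L := fun a b h =>
      funext fun z => H98.apply_swap_of_eq (f := fun x => x ∈ T) (propext h) z
    by_cases hxT : x ∈ T
    · obtain ⟨a, b, ha, hb, hab⟩ := (Set.one_lt_ncard_iff (Set.toFinite Tᶜ)).mp (by omega)
      have h6 := hfix (swap 0 1 * swap a b) ⟨mul_mem (hsw 0 1 (by simp [T])) (hsw a b
        ⟨fun h => absurd h ha, fun h => absurd h hb⟩), swap_mul_swap_mem_alt h01 hab⟩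
      rw [Perm.mul_apply, swap_apply_of_ne_of_ne (fun e : x = a => ha (e ▸ hxT))
        (fun e : x = b => hb (e ▸ hxT))]
        at h6
      rcases hxT with rfl | rfl
      · rw [swap_apply_left] at h6; exact h01 h6.symm
      · rw [swap_apply_right] at h6; exact h01 h6
    · obtain ⟨a, haT, ha⟩ := exists_mem_not_mem_list (D := Tᶜ) [x] (by simp; omega)
      obtain ⟨b, hbT, hb⟩ := exists_mem_not_mem_list (D := Tᶜ) [x, a] (by simp; omega)
      simp only [List.mem_cons, List.not_mem_nil, or_false, not_or] at ha hb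
      obtain ⟨k1, k2, -⟩ := exists_alt_map (Ne.symm ha) (Ne.symm hb.1) (Ne.symm hb.2)
      exact ha (k2.symm.trans (hfix _ ⟨mul_mem
        (hsw x a ⟨fun h => absurd h hxT, fun h => absurd h haT⟩)
        (hsw a b ⟨fun h => absurd h haT, fun h => absurd h hbT⟩), k1⟩))
  · subst hn
    let z : Perm (Fin 7) := swap 0 3 * swap 1 4 * swap 2 5
    obtain ⟨D, hD1, hD2⟩ := h3 (Subgroup.centralizer {z}) fun p hp h => by
      have h6 : z.cycleType = {2, 2, 2} := by decide +kernel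
      rw [nat_card_centralizer, h6] at h
      have h7 : p ∣ 2 ^ 4 * 3 := by simpa [Nat.factorial] using h
      rw [hp.dvd_mul, Nat.prime_dvd_prime_iff_eq hp Nat.prime_three] at h7
      have h8 : p = 2 ∨ p = 3 := h7.imp_left fun h =>
        (Nat.prime_dvd_prime_iff_eq hp Nat.prime_two).mp (hp.dvd_of_dvd_pow h)
      exact (h4 p hp (by omega)).mpr h8
    obtain ⟨D', rfl, hD'⟩ := hset D
    refine not_le_pairStab_seven D' (by omega) ⟨mem_pairStab.mp (hD2 ⟨?_, ?_⟩),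
      mem_pairStab.mp (hD2 ⟨?_, ?_⟩)⟩
    · exact Subgroup.mem_centralizer_singleton_iff.mpr (by decide +kernel)
    · exact mem_alternatingGroup.mpr (by decide +kernel)
    · exact Subgroup.mem_centralizer_singleton_iff.mpr (by decide +kernel)
    · exact mem_alternatingGroup.mpr (by decide +kernel)
  · subst hn
    let f : Fin 8 → Fin 3 := ![0, 0, 0, 1, 1, 1, 2, 2]
    obtain ⟨D, hD1, hD2⟩ := h3 (fibFix f) fun p hp h => by
      have h6 : ∀ i, {a | f a = i}.ncard ≤ 3 := fun i => by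
        rw [Set.ncard_eq_toFinset_card']
        revert i
        decide
      rw [card_fibFix, (Nat.Prime.prime hp).dvd_finsetProd_iff] at h
      obtain ⟨i, -, hi⟩ := h
      have h7 := (hp.dvd_factorial.mp hi).trans (h6 i)
      have h8 := hp.two_le
      exact (h4 p hp (by omega)).mpr (by omega)
    obtain ⟨D', rfl, hD'⟩ := hset D
    refine not_le_pairStab_eight D' (by omega) ⟨mem_pairStab.mp (hD2 ⟨?_, ?_⟩),
      mem_pairStab.mp (hD2 ⟨?_, ?_⟩), mem_pairStab.mp (hD2 ⟨?_, ?_⟩)⟩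
    · exact funext (by decide +kernel)
    · exact mem_alternatingGroup.mpr (by decide +kernel)
    · exact funext (by decide +kernel)
    · exact mem_alternatingGroup.mpr (by decide +kernel)
    · exact funext (by decide +kernel)
    · exact mem_alternatingGroup.mpr (by decide +kernel)

end H5.SN
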