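import Mathlib
import Cfsg.Agent.Lib.SN.FStar
import Cfsg.Agent.Lib.SN.Small

/-!
Alternating groups in which a Sylow 3-subgroup lies in a unique maximal subgroup.
-/

set_option autoImplicit false

open MulAction Equiv Equiv.Perm H61 Cfsg

namespace H5.SN

variable {α : Type*} [Fintype α] [DecidableEq α]

theorem not_alt_le_partStab {ι : Type*} {f : α → ι} {x y z : α} (hxy : x ≠ y) (h1 : f x = f y)
    (h2 : f z ≠ f x) : ¬ alternatingGroup α ≤ H98.partStab f := fun h => by
  have hxz : x ≠ z := fun e => h2 (by rw [e])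
  have hyz : y ≠ z := fun e => h2 (by rw [← e, h1])
  obtain ⟨k1, k2, -⟩ := exists_alt_map hxy hxz hyz
  have := (H98.mem_partStab.mp (h k1) x y).mp h1
  rw [k2, Perm.mul_apply, swap_apply_left, swap_apply_of_ne_of_ne hxz.symm hyz.symm] at this
  exact h2 (by rw [← this, h1])

theorem three_minimal {S M : Subgroup (Perm α)} (hS : SylIn 3 S (alternatingGroup α))
    (hM : M < alternatingGroup α) (hSM : S ≤ M)
    (h : ∀ H, S ≤ H → H < alternatingGroup α → H ≤ M) (h5 : 5 ≤ Fintype.card α) :
    Fintype.card α = 6 ∨ Fintype.card α = 9 ∨ ∃ a : ℕ, 2 ≤ a ∧ Fintype.card α = 3 ^ a + 1 := by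
  classical
  have : Fact (Nat.Prime 3) := ⟨Nat.prime_three⟩
  have hcc : ∀ D : Set α, D.ncard + Dᶜ.ncard = Fintype.card α := fun D => by
    rw [← Nat.card_eq_fintype_card]; exact Set.ncard_add_ncard_compl D
  have hover : ∀ (f : α → Set α) (x y z : α), x ≠ y → f x = f y → f z ≠ f x →
      S ≤ H98.partStab f → H98.partStab f ⊓ alternatingGroup α ≤ M :=
    fun f x y z h1 h2 h3 h4 => h _ (le_inf h4 hS.le)
      (lt_of_le_of_ne inf_le_right fun e => not_alt_le_partStab h1 h2 h3 (inf_eq_right.mp e))
  have hfull : ∀ (f : α → Set α) (x z : α), 3 ≤ {y | f y = f x}.ncard → f z ≠ f x →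
      S ≤ H98.partStab f → Full M {y | f y = f x} := fun f x z h1 h2 h3 => by
    obtain ⟨y, hy, hyx⟩ := Set.exists_ne_of_one_lt_ncard (s := {y | f y = f x}) (by omega) x
    refine ⟨fun g hg => hover f x y z hyx.symm hy.symm h2 h3
      ⟨H98.mem_partStab_of_comp id Function.injective_id fun t => ?_, hg.1⟩, h1⟩
    by_cases ht : f t = f x
    · exact (apply_mem_of_mem_symOn hg.2 ht).trans ht.symm
    · rw [mem_symOn.mp hg.2 t ht]; rfl
  have hinv : ∀ D : Set α, (∀ g ∈ S, ∀ x ∈ D, g x ∈ D) → 3 ≤ D.ncard → Dᶜ.Nonempty → Full M D :=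
    fun D h1 h2 ⟨z, hz⟩ => by
      obtain ⟨x, hx⟩ : D.Nonempty := Set.nonempty_of_ncard_ne_zero (by omega)
      have h3 : ∀ g ∈ S, ∀ y, g y ∈ D ↔ y ∈ D := fun g hg y =>
        ⟨fun h => by simpa using h1 _ (S.inv_mem hg) _ h, h1 g hg y⟩
      have h4 : {y | (if y ∈ D then D else ∅) = (if x ∈ D then D else ∅)} = D := by
        ext y
        simp only [if_pos hx, Set.mem_ofPred_eq]
        split_ifs with hy
        · simp [hy]
        · simpa [hy, eq_comm] using Set.nonempty_iff_ne_empty.mp ⟨x, hx⟩
      have := hfull (fun y => if y ∈ D then D else ∅) x z (by rw [h4]; exact h2)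
        (fun e => hz (h4 ▸ e)) (fun g hg => H98.mem_partStab_of_comp id Function.injective_id
          fun t => by simp only [h3 g hg, id])
      rwa [h4] at this
  have hnot : ∀ x, blk M x ≠ Set.univ := fun x e => by
    have := (full_blk_of_two_le (M := M) (x := x) (by
      rw [e, Set.ncard_univ, Nat.card_eq_fintype_card]; omega)).le
    rw [e, symOn_univ, inf_top_eq] at this
    exact hM.not_ge this
  have hunion : ∀ D E : Set α, Full M D → Full M E → (D ∩ E).Nonempty → D ∪ E ≠ Set.univ :=
    fun D E hD hE ⟨x, hx⟩ e => hnot x (Set.eq_univ_of_univ_subset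
      (e ▸ Set.union_subset (hD.blk hx.1).2 (hE.blk hx.2).2))
  have horb : ∀ x, ∀ g ∈ S, ∀ y ∈ orbit S x, g y ∈ orbit S x := fun x g hg y hy =>
    mapsTo_smul_orbit (⟨g, hg⟩ : S) x hy
  have hcompl : ∀ D : Set α, (∀ g ∈ S, ∀ x ∈ D, g x ∈ D) → ∀ g ∈ S, ∀ x ∈ Dᶜ, g x ∈ Dᶜ :=
    fun D h1 g hg x hx h2 => hx (by simpa using h1 _ (S.inv_mem hg) _ h2)
  have hbig : ∀ y, (∃ g ∈ S, g y ≠ y) → ∃ k, 1 ≤ k ∧ (orbit S y).ncard = 3 ^ k :=
    fun y ⟨g, hg, hgy⟩ => by
      obtain ⟨k, hk⟩ := exists_ncard_orbit hS.pgrp y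
      refine ⟨k, Nat.pos_of_ne_zero fun h0 => ?_, hk⟩
      rw [h0, pow_zero, Set.ncard_eq_one] at hk
      obtain ⟨v, hv⟩ := hk
      have h1 : g y ∈ orbit S y := mem_orbit_subgroup.mpr ⟨g, hg, rfl⟩
      have h2 : y ∈ orbit S y := mem_orbit_self _
      rw [hv] at h1 h2
      exact hgy (h1.trans h2.symm)
  by_cases hfix : ∃ x, ∀ g ∈ S, g x = x
  · obtain ⟨x, hx⟩ := hfix
    have h1 : ∀ x, (∀ g ∈ S, g x = x) → Full M {x}ᶜ := fun x hx =>
      hinv _ (hcompl _ fun g hg y hy => by rw [hy]; exact hx g hg)
        (by have := hcc {x}; rw [Set.ncard_singleton] at this; omega) ⟨x, by simp⟩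
    obtain ⟨y, hy⟩ := exists_not_mem_list [x] (by simp; omega)
    simp only [List.mem_cons, List.not_mem_nil, or_false] at hy
    have h2 : ∃ g ∈ S, g y ≠ y := by
      by_contra hn
      push Not at hn
      obtain ⟨z, hz⟩ := exists_not_mem_list [x, y] (by simp; omega)
      simp only [List.mem_cons, List.not_mem_nil, or_false, not_or] at hz
      refine hunion _ _ (h1 x hx) (h1 y hn) ⟨z, hz⟩ ?_
      rw [← Set.compl_inter, Set.compl_univ_iff, Set.singleton_inter_eq_empty]
      exact Ne.symm hy
    obtain ⟨k, hk1, hk⟩ := hbig y h2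
    have hxo : x ∉ orbit S y := fun h => by
      obtain ⟨g, hg, hgy⟩ := mem_orbit_subgroup.mp h
      exact hy (g.injective (hgy.trans (hx g hg).symm))
    have h3 : insert x (orbit S y) = Set.univ := by
      by_contra hne
      refine hunion _ _ (h1 x hx) (hinv (insert x (orbit S y)) ?_ ?_
        (Set.nonempty_compl.mpr hne)) ⟨y, hy, Or.inr (mem_orbit_self _)⟩ ?_
      · rintro g hg t (rfl | ht)
        · exact Or.inl (hx g hg)
        · exact Or.inr (horb y g hg t ht)
      · rw [Set.ncard_insert_of_notMem hxo, hk]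
        have := Nat.pow_le_pow_right (show 0 < 3 by norm_num) hk1
        omega
      · ext t; by_cases ht : t = x <;> simp [ht]
    have h4 := congrArg Set.ncard h3
    rw [Set.ncard_insert_of_notMem hxo, hk, Set.ncard_univ, Nat.card_eq_fintype_card] at h4
    refine Or.inr (Or.inr ⟨k, ?_, h4.symm⟩)
    by_contra hk2
    rw [show k = 1 by omega] at h4
    omega
  · push Not at hfix
    by_contra hcon
    push Not at hcon
    have h3 : ∀ x, (blk S x).ncard = 3 := fun x => by
      have hsub : ∀ x, (blk S x).ncard ≤ 3 := fun x => by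
        by_contra h4
        have hF := full_blk_of_two_le (M := S) (x := x) (by omega)
        obtain ⟨a, haU, -⟩ := exists_mem_not_mem_list (D := blk S x) [] (by simp; omega)
        obtain ⟨b, hbU, hb⟩ := exists_mem_not_mem_list (D := blk S x) [a] (by simp; omega)
        obtain ⟨c, hcU, hc⟩ := exists_mem_not_mem_list (D := blk S x) [a, b] (by simp; omega)
        obtain ⟨d, hdU, hd⟩ := exists_mem_not_mem_list (D := blk S x) [a, b, c] (by simp; omega)
        simp only [List.mem_cons, List.not_mem_nil, or_false, not_or] at hb hc hd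
        have h6 := hF.le ⟨swap_mul_swap_mem_alt (Ne.symm hb) (Ne.symm hd.2.2),
          mul_mem (swap_mem_symOn haU hbU) (swap_mem_symOn hcU hdU)⟩
        obtain ⟨k, hk⟩ := exists_pow_eq_one_of_mem hS.pgrp h6
        have h7 : (swap a b * swap c d) ^ 2 = 1 := by
          rw [(commute_swap_swap (Ne.symm hc.1) (Ne.symm hd.1) (Ne.symm hc.2)
            (Ne.symm hd.2.1)).mul_pow]; simp [sq]
        have h8 : swap a b * swap c d = 1 := by
          rw [← orderOf_eq_one_iff]
          exact Nat.eq_one_of_dvd_coprimes (Nat.Coprime.pow_right k (by norm_num))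
            (orderOf_dvd_of_pow_eq_one h7) (orderOf_dvd_of_pow_eq_one hk)
        have h9 := congrArg (fun σ : Perm α => σ a) h8
        simp only [Perm.mul_apply, swap_apply_of_ne_of_ne (Ne.symm hc.1) (Ne.symm hd.1),
          swap_apply_left, Perm.one_apply] at h9
        exact hb h9
      refine le_antisymm (hsub x) ?_
      by_contra hlt
      obtain ⟨k, hk1, hk⟩ := hbig x (hfix x)
      obtain ⟨y, hy, hy'⟩ := exists_full hS.idx (T := orbit S x) (by
        rw [hk]; exact Nat.pow_le_pow_right (show 0 < 3 by norm_num) hk1)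
      obtain ⟨g, hg, rfl⟩ := mem_orbit_subgroup.mp hy
      have := hy'.three
      rw [show g • x = g x from rfl, ncard_blk_apply (le_partStab_blk hg)] at this
      exact hlt this
    have hno : ∀ D, Full M D → D.ncard ≤ 3 := fun D hD => by
      by_contra hlt
      obtain ⟨x, hx⟩ : D.Nonempty := Set.nonempty_of_ncard_ne_zero (by omega)
      obtain ⟨y, hy, hy'⟩ : ∃ y ∈ D, y ∉ blk S x := by
        by_contra hn
        push Not at hn
        have := Set.ncard_le_ncard hn (Set.toFinite _)
        rw [h3] at this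
        omega
      obtain ⟨z, hz⟩ := Set.nonempty_compl.mpr (hnot x)
      have hSx : blk S x ⊆ blk M x := by
        have hF := full_blk_of_two_le (M := S) (x := x) (by rw [h3]; omega)
        exact ((⟨hF.le.trans hSM, hF.three⟩ : Full M _).blk (mem_blk_self x)).2
      have hcard : ∀ t, Nat.card {u // blk S u = blk S t} = 3 := fun t => by
        rw [← h3 t, ← Nat.card_coe_set_eq]
        exact Nat.card_congr (Equiv.subtypeEquivRight fun u => mem_blk_iff.symm)
      obtain ⟨w, hw, hwy, hwx⟩ := H98.exists_move (blk S) y z (by rw [hcard, hcard])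
      have hyx : blk S x ≠ blk S y := fun e => hy' (e ▸ mem_blk_self y)
      have hzx : blk S x ≠ blk S z := fun e => hz (hSx (e ▸ mem_blk_self z))
      obtain ⟨p, q, hpq, hp, hq, hp', hq'⟩ := H98.exists_pair_of_three_le (f := blk S) x
        (by rw [hcard])
      obtain ⟨w', hw', hw2⟩ := H98.exists_even_fix hw hpq (hp'.trans hq'.symm)
      have hw3 := hover (blk S) x p y hp.symm hp'.symm hyx.symm le_partStab_blk hw'
      have e1 : w' x = x := by
        rw [hw2 x (by rw [hwx x hyx hzx]; exact hp.symm) (by rw [hwx x hyx hzx]; exact hq.symm),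
          hwx x hyx hzx]
      have e2 : w' y = z := by
        rw [hw2 y (by rw [hwy]; exact fun e => hzx (by rw [e, hp']))
          (by rw [hwy]; exact fun e => hzx (by rw [e, hq'])), hwy]
      have := (H98.mem_partStab.mp (le_partStab_blk hw3) y x).mp
        (blk_eq_of_mem ((hD.blk hx).2 hy))
      rw [e1, e2] at this
      exact hz (mem_blk_iff.mpr this)
    obtain ⟨x⟩ : Nonempty α := Fintype.card_pos_iff.mp (by omega)
    obtain ⟨k, hk1, hk⟩ := hbig x (hfix x)
    have hdvd : 3 ∣ Fintype.card α := by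
      rw [← Nat.card_eq_fintype_card, ← Set.ncard_univ]
      refine dvd_ncard_of_orbits S Set.univ (Set.toFinite _) (fun _ _ _ _ => trivial) fun y _ => ?_
      obtain ⟨l, hl1, hl⟩ := hbig y (hfix y)
      rw [hl]; exact dvd_pow_self _ (by omega)
    have hc := hcc (orbit S x)
    by_cases htr : orbit S x = Set.univ
    · rw [htr, Set.ncard_univ, Nat.card_eq_fintype_card] at hk
      have hk3 : 3 ≤ k := by
        by_contra hlt
        interval_cases k <;> omega
      obtain ⟨r, hr⟩ := IsPGroup.iff_card.1 hS.pgrp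
      obtain ⟨s, hs⟩ := IsPGroup.iff_card.1 (hS.pgrp.to_subgroup (stabilizer S x))
      have hidx : (stabilizer S x).index = Fintype.card α := by
        rw [index_stabilizer, htr, Set.ncard_univ, Nat.card_eq_fintype_card]
      have hmul := (stabilizer S x).card_mul_index
      rw [hr, hs, hidx, hk, ← pow_add] at hmul
      have hsr : s + k = r := Nat.pow_right_injective (by norm_num) hmul
      obtain ⟨K, hK, hle⟩ := Sylow.exists_subgroup_card_pow_prime_le 3 (n := s) (m := r - 1)
        (G := S) (by rw [hr]; exact pow_dvd_pow 3 (by omega)) (stabilizer S x) hs (by omega)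
      have hKi : K.index = 3 := by
        have := K.card_mul_index
        rw [hK, hr, show r = r - 1 + 1 by omega, pow_succ] at this
        simp only [add_tsub_cancel_right] at this
        exact Nat.eq_of_mul_eq_mul_left (by positivity) this
      have hKn : K.Normal := Subgroup.normal_of_index_eq_minFac_card (by
        rw [hKi, hr, Nat.Prime.pow_minFac Nat.prime_three (by omega)])
      have hD : 3 * (orbit K x).ncard = Fintype.card α := by
        rw [← relIndex_stabilizer, ← hKi, mul_comm, Subgroup.relIndex_mul_index hle, hidx]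
      have h27 : 27 ≤ Fintype.card α := by
        rw [hk]; exact Nat.pow_le_pow_right (show 0 < 3 by norm_num) hk3
      have he : {y | orbit K y = orbit K x} = orbit K x := by
        ext y; exact orbit_eq_iff
      obtain ⟨z, hz⟩ : (orbit K x)ᶜ.Nonempty :=
        Set.nonempty_of_ncard_ne_zero (by have := hcc (orbit K x); omega)
      have := hno _ (hfull (fun y => orbit K y) x z (by rw [he]; omega)
        (fun e => hz (orbit_eq_iff.mp e)) fun g hg => by
          open Pointwise in
          refine H98.mem_partStab_of_comp (fun D => (⟨g, hg⟩ : S) • D) (MulAction.injective _)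
            fun t => ?_
          exact (smul_orbit_of_mem_normalizer (G := S) (g := ⟨g, hg⟩) (by
            rw [Subgroup.normalizer_eq_top]; trivial) t).symm)
      rw [he] at this
      omega
    · have h1 := hno _ (hinv _ (horb x) (by
        rw [hk]; exact Nat.pow_le_pow_right (show 0 < 3 by norm_num) hk1)
        (Set.nonempty_compl.mpr htr))
      have h2 := hno _ (hinv _ (hcompl _ (horb x)) (by omega)
        (by rw [compl_compl]; exact ⟨x, mem_orbit_self _⟩))
      omega

end H5.SN
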